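import Cfsg.Agent.Lib.Helper27.Extra2
import Cfsg.Agent.Lib.Helper27.Extra3

set_option autoImplicit false

/-! A pair of conjugate large extraspecial subgroups `Q`, `P` with `Z(P) ≤ Q`, `Z(Q) ≤ P`. -/

namespace Cfsg.Agent.Lib.Helper27

open Cfsg

variable {G : Type*} [Group G]

/-- The elements normalizing `E` and centralizing `S` modulo `E`. -/
def relCent (E : Subgroup G) (S : Set G) : Subgroup G where
  carrier := {x | x ∈ Subgroup.normalizer (E : Set G) ∧ ∀ s ∈ S, x * s * x⁻¹ * s⁻¹ ∈ E}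
  one_mem' := ⟨Subgroup.one_mem _, fun s _ => by simp⟩
  mul_mem' := by
    rintro a b ⟨ha, ha'⟩ ⟨hb, hb'⟩
    refine ⟨Subgroup.mul_mem _ ha hb, fun s hs => ?_⟩
    have e : a * b * s * (a * b)⁻¹ * s⁻¹ = a * (b * s * b⁻¹ * s⁻¹) * a⁻¹ * (a * s * a⁻¹ * s⁻¹) := by group
    rw [e]
    exact E.mul_mem ((Subgroup.mem_normalizer_iff.1 ha _).1 (hb' s hs)) (ha' s hs)
  inv_mem' := by
    rintro a ⟨ha, ha'⟩
    refine ⟨Subgroup.inv_mem _ ha, fun s hs => ?_⟩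
    have e : a⁻¹ * s * a⁻¹⁻¹ * s⁻¹ = a⁻¹ * (a * s * a⁻¹ * s⁻¹)⁻¹ * a⁻¹⁻¹ := by group
    rw [e]
    exact (Subgroup.mem_normalizer_iff.1 (Subgroup.inv_mem _ ha) _).1 (E.inv_mem (ha' s hs))

theorem mem_relCent {E : Subgroup G} {S : Set G} {x : G} :
    x ∈ relCent E S ↔ x ∈ Subgroup.normalizer (E : Set G) ∧ ∀ s ∈ S, x * s * x⁻¹ * s⁻¹ ∈ E := Iff.rfl

theorem comm_swap_mem {E : Subgroup G} {a b : G} (h : a * b * a⁻¹ * b⁻¹ ∈ E) : b * a * b⁻¹ * a⁻¹ ∈ E := by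
  have h1 := E.inv_mem h
  have e : (a * b * a⁻¹ * b⁻¹)⁻¹ = b * a * b⁻¹ * a⁻¹ := by group
  rwa [e] at h1

theorem comm_mem_of_sup {E A B : Subgroup G} (hA : A ≤ Subgroup.normalizer (E : Set G))
    (hB : B ≤ Subgroup.normalizer (E : Set G))
    (hAA : ∀ a ∈ A, ∀ a' ∈ A, a * a' * a⁻¹ * a'⁻¹ ∈ E) (hBB : ∀ b ∈ B, ∀ b' ∈ B, b * b' * b⁻¹ * b'⁻¹ ∈ E)
    (hAB : ∀ a ∈ A, ∀ b ∈ B, a * b * a⁻¹ * b⁻¹ ∈ E) :
    ∀ x ∈ A ⊔ B, ∀ x' ∈ A ⊔ B, x * x' * x⁻¹ * x'⁻¹ ∈ E := by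
  have h1 : A ⊔ B ≤ relCent E ((A : Set G) ∪ B) :=
    sup_le (fun a ha => ⟨hA ha, fun s hs => hs.elim (hAA a ha s) (hAB a ha s)⟩)
      (fun b hb => ⟨hB hb, fun s hs => hs.elim (fun hs' => comm_swap_mem (hAB s hs' b hb)) (hBB b hb s)⟩)
  have h2 : A ⊔ B ≤ relCent E ((A ⊔ B : Subgroup G) : Set G) :=
    sup_le (fun a ha => ⟨hA ha, fun s hs => comm_swap_mem ((h1 hs).2 a (Or.inl ha))⟩)
      (fun b hb => ⟨hB hb, fun s hs => comm_swap_mem ((h1 hs).2 b (Or.inr hb))⟩)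
  exact fun x hx x' hx' => (h2 hx).2 x' hx'

/-- elements of a join `A ⊔ B` when `A` normalizes `B`. -/
theorem exists_mul_of_mem_sup {A B : Subgroup G} (h : ∀ a ∈ A, ∀ b ∈ B, a * b * a⁻¹ ∈ B) {x : G}
    (hx : x ∈ A ⊔ B) : ∃ b ∈ B, ∃ a ∈ A, x = b * a := by
  let K : Subgroup G :=
    { carrier := {x | ∃ b ∈ B, ∃ a ∈ A, x = b * a}
      one_mem' := ⟨1, B.one_mem, 1, A.one_mem, by simp⟩
      mul_mem' := by
        rintro _ _ ⟨b, hb, a, ha, rfl⟩ ⟨b', hb', a', ha', rfl⟩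
        exact ⟨b * (a * b' * a⁻¹), B.mul_mem hb (h a ha b' hb'), a * a', A.mul_mem ha ha', by group⟩
      inv_mem' := by
        rintro _ ⟨b, hb, a, ha, rfl⟩
        exact ⟨a⁻¹ * b⁻¹ * a⁻¹⁻¹, h _ (A.inv_mem ha) _ (B.inv_mem hb), a⁻¹, A.inv_mem ha, by group⟩ }
  have hK : A ⊔ B ≤ K :=
    sup_le (fun a ha => ⟨1, B.one_mem, a, ha, by simp⟩) (fun b hb => ⟨b, hb, 1, A.one_mem, by simp⟩)
  exact hK hx

theorem closure_pair_eq_fourSub {z y : G} (hz : z * z = 1) (hy : y * y = 1) (hc : y * z = z * y) :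
    Subgroup.closure ({z, y} : Set G) = fourSub z y hz hy hc := by
  apply le_antisymm
  · rw [Subgroup.closure_le]
    rintro x (rfl | rfl)
    · exact Or.inr (Or.inl rfl)
    · exact Or.inr (Or.inr (Or.inl rfl))
  · have h1 : z ∈ Subgroup.closure ({z, y} : Set G) := Subgroup.subset_closure (by simp)
    have h2 : y ∈ Subgroup.closure ({z, y} : Set G) := Subgroup.subset_closure (by simp)
    rintro x (rfl | rfl | rfl | rfl)
    · exact Subgroup.one_mem _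
    · exact h1
    · exact h2
    · exact Subgroup.mul_mem _ h1 h2

variable {Q P : Subgroup G} {z y : G}

/-- `C_G(z) ∩ C_G(C_Q(y)) = ⟨z, y⟩`. -/
theorem ES.cent_U (h : ES Q z) (hy : y ∈ Q) (hyy : y * y = 1) (hy1 : y ≠ 1) (hyz : y ≠ z)
    {c : G} (hcz : c * z = z * c) (hcU : ∀ u ∈ Q, u * y = y * u → u * c = c * u) :
    c = 1 ∨ c = z ∨ c = y ∨ c = z * y := by
  obtain ⟨q₀, hq₀, hq₀y⟩ := h.exists_conj hy hy1 hyz
  have hzy : y * z = z * y := h.cen y hy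
  have hq₀z : q₀ * z * q₀⁻¹ = z := by rw [h.cen q₀ hq₀]; group
  have hq₀zy : q₀ * (z * y) * q₀⁻¹ = y := by
    calc q₀ * (z * y) * q₀⁻¹ = (q₀ * z * q₀⁻¹) * (q₀ * y * q₀⁻¹) := by group
      _ = z * (z * y) := by rw [hq₀z, hq₀y]
      _ = y := by rw [← mul_assoc, h.sq, one_mul]
  have hq₀y' : q₀⁻¹ * y * q₀ = z * y := by
    calc q₀⁻¹ * y * q₀ = q₀⁻¹ * (q₀ * (z * y) * q₀⁻¹) * q₀ := by rw [hq₀zy]
      _ = z * y := by group
  have hq₀zy' : q₀⁻¹ * (z * y) * q₀ = y := by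
    calc q₀⁻¹ * (z * y) * q₀ = q₀⁻¹ * (q₀ * y * q₀⁻¹) * q₀ := by rw [hq₀y]
      _ = y := by group
  have hcentral : ∀ x : G, (∀ u ∈ Q, u * y = y * u → u * x = x * u) → q₀ * x = x * q₀ → x = 1 ∨ x = z := by
    intro x hxU hx0
    apply h.cent
    intro q hq
    rcases h.coset hy hq₀y hq with h1 | h1
    · exact hxU q hq h1
    · have h2 := hxU _ (Q.mul_mem (Q.inv_mem hq₀) hq) h1
      calc q * x = q₀ * ((q₀⁻¹ * q) * x) := by group
        _ = q₀ * (x * (q₀⁻¹ * q)) := by rw [h2]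
        _ = (q₀ * x) * (q₀⁻¹ * q) := by group
        _ = x * q := by rw [hx0]; group
  obtain ⟨t, htdef⟩ : ∃ t, t = q₀⁻¹ * (c * q₀ * c⁻¹) := ⟨_, rfl⟩
  have htQ : t ∈ Q := htdef ▸ Q.mul_mem (Q.inv_mem hq₀) (h.nor c hcz q₀ hq₀)
  have hcq : c * q₀ * c⁻¹ = q₀ * t := by rw [htdef]; group
  have htU : ∀ u ∈ Q, u * y = y * u → u * t = t * u := by
    intro u hu huy
    have hu' : q₀ * u * q₀⁻¹ ∈ Q := Q.mul_mem (Q.mul_mem hq₀ hu) (Q.inv_mem hq₀)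
    have huzy : u * (z * y) = (z * y) * u := by
      rw [← mul_assoc, h.cen u hu, mul_assoc, huy, mul_assoc]
    have hu'y : (q₀ * u * q₀⁻¹) * y = y * (q₀ * u * q₀⁻¹) := by
      calc (q₀ * u * q₀⁻¹) * y = q₀ * (u * (q₀⁻¹ * y * q₀)) * q₀⁻¹ := by group
        _ = q₀ * ((z * y) * u) * q₀⁻¹ := by rw [hq₀y', huzy]
        _ = (q₀ * (z * y) * q₀⁻¹) * (q₀ * u * q₀⁻¹) := by group
        _ = y * (q₀ * u * q₀⁻¹) := by rw [hq₀zy]
    have h1 := hcU u hu huy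
    have h2 := hcU _ hu' hu'y
    have h3 : c * u * c⁻¹ = u := by rw [← h1]; group
    have h4 : c * (q₀ * u * q₀⁻¹) * c⁻¹ = q₀ * u * q₀⁻¹ := by rw [← h2]; group
    have h5 : (q₀ * t) * u * (q₀ * t)⁻¹ = q₀ * u * q₀⁻¹ := by
      calc (q₀ * t) * u * (q₀ * t)⁻¹ = (c * q₀ * c⁻¹) * (c * u * c⁻¹) * (c * q₀ * c⁻¹)⁻¹ := by rw [hcq, h3]
        _ = c * (q₀ * u * q₀⁻¹) * c⁻¹ := by group
        _ = q₀ * u * q₀⁻¹ := h4
    calc u * t = q₀⁻¹ * (q₀ * u * q₀⁻¹) * q₀ * t := by group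
      _ = q₀⁻¹ * ((q₀ * t) * u * (q₀ * t)⁻¹) * q₀ * t := by rw [h5]
      _ = t * u := by group
  have hsq : q₀⁻¹ * t * q₀ = t⁻¹ := by
    have h1 : c * (q₀ * q₀) * c⁻¹ = q₀ * q₀ := by
      rcases h.sqs q₀ hq₀ with h2 | h2
      · rw [h2]; group
      · rw [h2, hcz]; group
    have h2 : (q₀ * t) * (q₀ * t) = q₀ * q₀ := by
      calc (q₀ * t) * (q₀ * t) = (c * q₀ * c⁻¹) * (c * q₀ * c⁻¹) := by rw [hcq]
        _ = c * (q₀ * q₀) * c⁻¹ := by group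
        _ = q₀ * q₀ := h1
    calc q₀⁻¹ * t * q₀ = q₀⁻¹ * q₀⁻¹ * ((q₀ * t) * (q₀ * t)) * t⁻¹ := by group
      _ = q₀⁻¹ * q₀⁻¹ * (q₀ * q₀) * t⁻¹ := by rw [h2]
      _ = t⁻¹ := by group
  have hyi : y⁻¹ = y := inv_eq_of_mul_eq_one_left hyy
  have hzi : z⁻¹ = z := inv_eq_of_mul_eq_one_left h.sq
  rcases h.centralizer_U hy hyy hy1 hyz htQ htU with ht | ht | ht | ht
  · have h1 : q₀ * c = c * q₀ := by
      calc q₀ * c = (q₀ * t) * c := by rw [ht, mul_one]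
        _ = (c * q₀ * c⁻¹) * c := by rw [hcq]
        _ = c * q₀ := by group
    rcases hcentral c hcU h1 with h2 | h2
    · exact Or.inl h2
    · exact Or.inr (Or.inl h2)
  · have hyq : y * q₀ * y⁻¹ = z * q₀ := by
      calc y * q₀ * y⁻¹ = (q₀ * (q₀⁻¹ * y * q₀)) * y⁻¹ := by group
        _ = q₀ * z := by rw [hq₀y']; group
        _ = z * q₀ := h.cen q₀ hq₀
    have h3 : q₀ * (c * y) = (c * y) * q₀ := by
      have e1 : (c * y) * q₀ * (c * y)⁻¹ = q₀ := by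
        calc (c * y) * q₀ * (c * y)⁻¹ = c * (y * q₀ * y⁻¹) * c⁻¹ := by group
          _ = (c * z * c⁻¹) * (c * q₀ * c⁻¹) := by rw [hyq]; group
          _ = z * (q₀ * z) := by rw [hcq, ht, hcz]; group
          _ = q₀ := by rw [h.cen q₀ hq₀, ← mul_assoc, h.sq, one_mul]
      calc q₀ * (c * y) = ((c * y) * q₀ * (c * y)⁻¹) * (c * y) := by rw [e1]
        _ = (c * y) * q₀ := by group
    have h4 : ∀ u ∈ Q, u * y = y * u → u * (c * y) = (c * y) * u := by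
      intro u hu huy
      calc u * (c * y) = (u * c) * y := by group
        _ = c * (u * y) := by rw [hcU u hu huy]; group
        _ = c * y * u := by rw [huy]; group
    have h6 : c = (c * y) * y := by rw [mul_assoc, hyy, mul_one]
    rcases hcentral _ h4 h3 with h5 | h5
    · right; right; left
      rw [h6, h5, one_mul]
    · right; right; right
      rw [h6, h5]
  · exfalso
    rw [ht, hq₀y', hyi] at hsq
    exact h.ne (mul_eq_right.1 hsq)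
  · exfalso
    rw [ht, hq₀zy', mul_inv_rev, hyi, hzi, hzy] at hsq
    exact h.ne (mul_eq_right.1 hsq.symm)

structure Pair (Q P : Subgroup G) (z y : G) : Prop where
  hQ : ES Q z
  hP : ES P y
  yQ : y ∈ Q
  zP : z ∈ P
  ne : y ≠ z

theorem Pair.symm (h : Pair Q P z y) : Pair P Q y z := ⟨h.hP, h.hQ, h.zP, h.yQ, h.ne.symm⟩

theorem Pair.comm (h : Pair Q P z y) : y * z = z * y := h.hQ.cen y h.yQ

theorem ES.le_centralizer (h : ES Q z) : Q ≤ Subgroup.centralizer {z} := fun q hq =>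
  Subgroup.mem_centralizer_singleton_iff.2 (h.cen q hq)

theorem Pair.of_conj [Finite G] (hQ : ES Q z) (g : G) (hgQ : g * z * g⁻¹ ∈ Q) (hne : g * z * g⁻¹ ≠ z)
    (hbig : 8 < Nat.card Q) : Pair Q (Q.map (MulAut.conj g).toMonoidHom) z (g * z * g⁻¹) := by
  refine ⟨hQ, hQ.conj g, hgQ, ?_, hne⟩
  apply hQ.key (hQ.conj g) hgQ hne hbig
  intro s h1 h2
  rw [mem_map_conj_iff]
  have h3 : (g⁻¹ * s) * z = z * (g⁻¹ * s) := by
    calc (g⁻¹ * s) * z = g⁻¹ * (s * z * s⁻¹) * s := by group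
      _ = g⁻¹ * (g * z * g⁻¹) * s := by rw [h1]
      _ = z * (g⁻¹ * s) := by group
  have h4 := hQ.nor _ h3 _ hgQ
  have e : g⁻¹ * z * g = g⁻¹ * s * (g * z * g⁻¹) * (g⁻¹ * s)⁻¹ := by
    calc g⁻¹ * z * g = g⁻¹ * (s * (g * z * g⁻¹) * s⁻¹) * g := by rw [h2]
      _ = _ := by group
  rw [e]; exact h4

theorem Pair.E_comm (h : Pair Q P z y) {e e' : G} (he : e ∈ Q ⊓ P) (he' : e' ∈ Q ⊓ P) : e * e' = e' * e := by
  rcases h.hQ.comm e he.1 e' he'.1 with h1 | h1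
  · exact comm_of_commutator_eq_one h1
  · rcases h.hP.comm e he.2 e' he'.2 with h2 | h2
    · exact comm_of_commutator_eq_one h2
    · exact absurd (h2.symm.trans h1) h.ne

theorem Pair.E_sq (h : Pair Q P z y) {e : G} (he : e ∈ Q ⊓ P) : e * e = 1 := by
  rcases h.hQ.sqs e he.1 with h1 | h1
  · exact h1
  · rcases h.hP.sqs e he.2 with h2 | h2
    · exact h2
    · exact absurd (h2.symm.trans h1) h.ne

theorem Pair.z_mem_E (h : Pair Q P z y) : z ∈ Q ⊓ P := ⟨h.hQ.mem, h.zP⟩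
theorem Pair.y_mem_E (h : Pair Q P z y) : y ∈ Q ⊓ P := ⟨h.yQ, h.hP.mem⟩

theorem Pair.Q_comm_E (h : Pair Q P z y) {q e : G} (hq : q ∈ Q) (he : e ∈ Q ⊓ P) :
    q * e * q⁻¹ * e⁻¹ = 1 ∨ q * e * q⁻¹ * e⁻¹ = z := h.hQ.comm q hq e he.1

theorem Pair.Q_le_normalizer_E [Finite G] (h : Pair Q P z y) : Q ≤ Subgroup.normalizer ((Q ⊓ P : Subgroup G) : Set G) := by
  intro q hq
  apply mem_normalizer_of_conj_mem_finite
  intro e he
  have e1 : q * e * q⁻¹ = (q * e * q⁻¹ * e⁻¹) * e := by group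
  rw [e1]
  refine Subgroup.mul_mem _ ?_ he
  rcases h.Q_comm_E hq he with h1 | h1
  · rw [h1]; exact Subgroup.one_mem _
  · rw [h1]; exact h.z_mem_E

theorem Pair.P_le_normalizer_E [Finite G] (h : Pair Q P z y) : P ≤ Subgroup.normalizer ((Q ⊓ P : Subgroup G) : Set G) := by
  have := h.symm.Q_le_normalizer_E
  rwa [inf_comm] at this

theorem Pair.U_W_comm (h : Pair Q P z y) {u w : G} (hu : u ∈ Q ⊓ Subgroup.centralizer {y})
    (hw : w ∈ P ⊓ Subgroup.centralizer {z}) : u * w * u⁻¹ * w⁻¹ ∈ Q ⊓ P := by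
  have huy := Subgroup.mem_centralizer_singleton_iff.1 hu.2
  have hwz := Subgroup.mem_centralizer_singleton_iff.1 hw.2
  refine ⟨?_, P.mul_mem (h.hP.nor u huy w hw.1) (P.inv_mem hw.1)⟩
  have e : u * w * u⁻¹ * w⁻¹ = u * (w * u⁻¹ * w⁻¹) := by group
  rw [e]
  exact Q.mul_mem hu.1 (h.hQ.nor w hwz _ (Q.inv_mem hu.1))

theorem Pair.E_le_U (h : Pair Q P z y) : Q ⊓ P ≤ Q ⊓ Subgroup.centralizer {y} :=
  fun _ he => ⟨he.1, h.hP.le_centralizer he.2⟩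

theorem Pair.E_le_W (h : Pair Q P z y) : Q ⊓ P ≤ P ⊓ Subgroup.centralizer {z} :=
  fun _ he => ⟨he.2, h.hQ.le_centralizer he.1⟩

theorem Pair.W_inf_U (h : Pair Q P z y) :
    (P ⊓ Subgroup.centralizer {z}) ⊓ (Q ⊓ Subgroup.centralizer {y}) = Q ⊓ P :=
  le_antisymm (fun _ hx => ⟨hx.2.1, hx.1.1⟩) (le_inf h.E_le_W h.E_le_U)

theorem Pair.W_conj_U (h : Pair Q P z y) {u w : G} (hw : w ∈ P ⊓ Subgroup.centralizer {z})
    (hu : u ∈ Q ⊓ Subgroup.centralizer {y}) : w * u * w⁻¹ ∈ Q ⊓ Subgroup.centralizer {y} := by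
  have hwz := Subgroup.mem_centralizer_singleton_iff.1 hw.2
  have hwy : w ∈ Subgroup.centralizer {y} := h.hP.le_centralizer hw.1
  exact ⟨h.hQ.nor w hwz u hu.1, Subgroup.mul_mem _ (Subgroup.mul_mem _ hwy hu.2) (Subgroup.inv_mem _ hwy)⟩

/-- commutators of `R = W U` lie in `E`. -/
theorem Pair.R_comm [Finite G] (h : Pair Q P z y) :
    ∀ x ∈ (P ⊓ Subgroup.centralizer {z}) ⊔ (Q ⊓ Subgroup.centralizer {y}),
    ∀ x' ∈ (P ⊓ Subgroup.centralizer {z}) ⊔ (Q ⊓ Subgroup.centralizer {y}), x * x' * x⁻¹ * x'⁻¹ ∈ Q ⊓ P := by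
  apply comm_mem_of_sup (inf_le_left.trans h.P_le_normalizer_E) (inf_le_left.trans h.Q_le_normalizer_E)
  · intro a ha a' ha'
    rcases h.hP.comm a ha.1 a' ha'.1 with h1 | h1
    · rw [h1]; exact Subgroup.one_mem _
    · rw [h1]; exact h.y_mem_E
  · intro a ha a' ha'
    rcases h.hQ.comm a ha.1 a' ha'.1 with h1 | h1
    · rw [h1]; exact Subgroup.one_mem _
    · rw [h1]; exact h.z_mem_E
  · intro a ha b hb
    exact comm_swap_mem (h.U_W_comm hb ha)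

theorem Pair.R_sq [Finite G] (h : Pair Q P z y) {x : G}
    (hx : x ∈ (P ⊓ Subgroup.centralizer {z}) ⊔ (Q ⊓ Subgroup.centralizer {y})) : x * x ∈ Q ⊓ P := by
  obtain ⟨u, hu, w, hw, rfl⟩ := exists_mul_of_mem_sup (fun a ha b hb => h.W_conj_U ha hb) hx
  have e : u * w * (u * w) = (u * u) * (u⁻¹ * w * u⁻¹⁻¹ * w⁻¹) * (w * w) := by group
  rw [e]
  refine Subgroup.mul_mem _ (Subgroup.mul_mem _ ?_ (h.U_W_comm (Subgroup.inv_mem _ hu) hw)) ?_
  · rcases h.hQ.sqs u hu.1 with h1 | h1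
    · rw [h1]; exact Subgroup.one_mem _
    · rw [h1]; exact h.z_mem_E
  · rcases h.hP.sqs w hw.1 with h1 | h1
    · rw [h1]; exact Subgroup.one_mem _
    · rw [h1]; exact h.y_mem_E

theorem Pair.R_le_centralizer_z (h : Pair Q P z y) :
    (P ⊓ Subgroup.centralizer {z}) ⊔ (Q ⊓ Subgroup.centralizer {y}) ≤ Subgroup.centralizer {z} :=
  sup_le inf_le_right (inf_le_left.trans h.hQ.le_centralizer)

theorem Pair.R_le_centralizer_y (h : Pair Q P z y) :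
    (P ⊓ Subgroup.centralizer {z}) ⊔ (Q ⊓ Subgroup.centralizer {y}) ≤ Subgroup.centralizer {y} :=
  sup_le (inf_le_left.trans h.hP.le_centralizer) inf_le_right

/-- `Z(R) = V`. -/
theorem Pair.mem_center_R_iff (h : Pair Q P z y) {c : G} :
    (c ∈ (P ⊓ Subgroup.centralizer {z}) ⊔ (Q ⊓ Subgroup.centralizer {y}) ∧
      ∀ x ∈ (P ⊓ Subgroup.centralizer {z}) ⊔ (Q ⊓ Subgroup.centralizer {y}), x * c = c * x) ↔
    c = 1 ∨ c = z ∨ c = y ∨ c = z * y := by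
  have hzR : z ∈ (P ⊓ Subgroup.centralizer {z}) ⊔ (Q ⊓ Subgroup.centralizer {y}) :=
    Subgroup.mem_sup_right (h.E_le_U h.z_mem_E)
  have hyR : y ∈ (P ⊓ Subgroup.centralizer {z}) ⊔ (Q ⊓ Subgroup.centralizer {y}) :=
    Subgroup.mem_sup_right (h.E_le_U h.y_mem_E)
  constructor
  · rintro ⟨hc, hcx⟩
    apply h.hQ.cent_U h.yQ h.hP.sq h.hP.ne h.ne
    · exact Subgroup.mem_centralizer_singleton_iff.1 (h.R_le_centralizer_z hc)
    · intro u hu huy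
      exact hcx u (Subgroup.mem_sup_right ⟨hu, Subgroup.mem_centralizer_singleton_iff.2 huy⟩)
  · have h1 : ∀ x ∈ (P ⊓ Subgroup.centralizer {z}) ⊔ (Q ⊓ Subgroup.centralizer {y}), x * z = z * x :=
      fun x hx => Subgroup.mem_centralizer_singleton_iff.1 (h.R_le_centralizer_z hx)
    have h2 : ∀ x ∈ (P ⊓ Subgroup.centralizer {z}) ⊔ (Q ⊓ Subgroup.centralizer {y}), x * y = y * x :=
      fun x hx => Subgroup.mem_centralizer_singleton_iff.1 (h.R_le_centralizer_y hx)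
    rintro (rfl | rfl | rfl | rfl)
    · exact ⟨Subgroup.one_mem _, fun x _ => by simp⟩
    · exact ⟨hzR, h1⟩
    · exact ⟨hyR, h2⟩
    · exact ⟨Subgroup.mul_mem _ hzR hyR, fun x hx => by
        rw [← mul_assoc, h1 x hx, mul_assoc, h2 x hx, mul_assoc]⟩

theorem Pair.mem_V (h : Pair Q P z y) {x : G} :
    x ∈ Subgroup.closure ({z, y} : Set G) ↔ x = 1 ∨ x = z ∨ x = y ∨ x = z * y := by
  rw [closure_pair_eq_fourSub h.hQ.sq h.hP.sq h.comm]; exact Iff.rfl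

theorem Pair.Q_le_normalizer_V [Finite G] (h : Pair Q P z y) :
    Q ≤ Subgroup.normalizer ((Subgroup.closure ({z, y} : Set G) : Subgroup G) : Set G) := by
  intro q hq
  have hz : q * z * q⁻¹ = z := by rw [h.hQ.cen q hq]; group
  have hy : q * y * q⁻¹ = y ∨ q * y * q⁻¹ = z * y := by
    have e : q * y * q⁻¹ = (q * y * q⁻¹ * y⁻¹) * y := by group
    rcases h.hQ.comm q hq y h.yQ with h1 | h1
    · left; rw [e, h1, one_mul]
    · right; rw [e, h1]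
  apply mem_normalizer_of_conj_mem_finite
  intro x hx
  rw [h.mem_V] at hx ⊢
  rcases hx with rfl | rfl | rfl | rfl
  · left; group
  · right; left; exact hz
  · rcases hy with h1 | h1
    · right; right; left; exact h1
    · right; right; right; exact h1
  · have e : q * (z * y) * q⁻¹ = (q * z * q⁻¹) * (q * y * q⁻¹) := by group
    rcases hy with h1 | h1
    · right; right; right; rw [e, hz, h1]
    · right; right; left; rw [e, hz, h1, ← mul_assoc, h.hQ.sq, one_mul]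

theorem Pair.Q_le_relCent [Finite G] (h : Pair Q P z y) :
    Q ≤ relCent (Subgroup.closure ({z, y} : Set G)) ((Q ⊓ P : Subgroup G) : Set G) := by
  intro q hq
  refine ⟨h.Q_le_normalizer_V hq, fun e he => ?_⟩
  rw [h.mem_V]
  rcases h.Q_comm_E hq he with h1 | h1
  · exact Or.inl h1
  · exact Or.inr (Or.inl h1)

theorem Pair.X_le_relCent [Finite G] (h : Pair Q P z y) :
    Q ⊔ P ≤ relCent (Subgroup.closure ({z, y} : Set G)) ((Q ⊓ P : Subgroup G) : Set G) := by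
  refine sup_le h.Q_le_relCent ?_
  have := h.symm.Q_le_relCent
  rwa [Set.pair_comm, inf_comm] at this

theorem Pair.R_le_X (h : Pair Q P z y) :
    (P ⊓ Subgroup.centralizer {z}) ⊔ (Q ⊓ Subgroup.centralizer {y}) ≤ Q ⊔ P :=
  sup_le (inf_le_left.trans le_sup_right) (inf_le_left.trans le_sup_left)

end Cfsg.Agent.Lib.Helper27
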