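import Cfsg.Agent.Lib.Helper27.Extra
import Cfsg.Agent.Lib.Helper20.Extraspecial2

set_option autoImplicit false

/-! Elementwise description of an extraspecial 2-subgroup `Q` with `C_G(Q) = Z(Q) = ⟨z⟩` and `Q ⊴ C_G(z)`. -/

namespace Cfsg.Agent.Lib.Helper27

open Cfsg

variable {G : Type*} [Group G]

/-- The subgroup `{1, y}` generated by an involution. -/
def twoSub (y : G) (hy : y * y = 1) : Subgroup G where
  carrier := {x | x = 1 ∨ x = y}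
  one_mem' := Or.inl rfl
  mul_mem' := by
    rintro a b (rfl | rfl) (rfl | rfl) <;> simp [hy]
  inv_mem' := by
    have hyi : y⁻¹ = y := inv_eq_of_mul_eq_one_left hy
    rintro a (rfl | rfl) <;> simp [hyi]

structure ES (Q : Subgroup G) (z : G) : Prop where
  mem : z ∈ Q
  ne : z ≠ 1
  sq : z * z = 1
  cen : ∀ q ∈ Q, q * z = z * q
  comm : ∀ x ∈ Q, ∀ y ∈ Q, x * y * x⁻¹ * y⁻¹ = 1 ∨ x * y * x⁻¹ * y⁻¹ = z
  sqs : ∀ x ∈ Q, x * x = 1 ∨ x * x = z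
  cent : ∀ x : G, (∀ q ∈ Q, q * x = x * q) → x = 1 ∨ x = z
  nor : ∀ x : G, x * z = z * x → ∀ q ∈ Q, x * q * x⁻¹ ∈ Q

theorem ES.of_extra [Finite G] (Q : Subgroup G) (hL1 : Cfsg.IsExtraspecial 2 Q)
    (hL2 : Subgroup.centralizer (Q : Set G) = ((Subgroup.center Q).map Q.subtype))
    (hL3 : Subgroup.centralizer (((Subgroup.center Q).map Q.subtype) : Set G) ≤ Subgroup.normalizer (Q : Set G)) :
    ∃ z, ES Q z ∧ ∀ x, x ∈ (Subgroup.center Q).map Q.subtype ↔ x = 1 ∨ x = z := by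
  have : Fact (Nat.Prime 2) := ⟨Nat.prime_two⟩
  obtain ⟨z, hzQ, hz1, hzz, hzc, hmem, hcomm⟩ := extra_gen Q hL1
  refine ⟨z, ⟨hzQ, hz1, hzz, hzc, hcomm, ?_, ?_, ?_⟩, hmem⟩
  · intro x hx
    rw [← hmem]
    have h := Cfsg.Agent.Lib.Helper20.extraspecial_pow_mem_center hL1 ⟨x, hx⟩
    refine ⟨_, h, ?_⟩
    simp [pow_two]
  · intro x hx
    rw [← hmem, ← hL2, Subgroup.mem_centralizer_iff]
    exact hx
  · intro x hx q hq
    have h1 : x ∈ Subgroup.centralizer (((Subgroup.center Q).map Q.subtype) : Set G) := by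
      rw [Subgroup.mem_centralizer_iff]
      intro c hc
      rcases (hmem c).1 hc with rfl | rfl
      · simp
      · exact hx.symm
    exact (Subgroup.mem_normalizer_iff.1 (hL3 h1) q).1 hq

theorem mem_map_conj_iff {Q : Subgroup G} {g x : G} :
    x ∈ Q.map (MulAut.conj g).toMonoidHom ↔ g⁻¹ * x * g ∈ Q := by
  constructor
  · rintro ⟨q, hq, rfl⟩
    simpa [MulAut.conj_apply, mul_assoc] using hq
  · intro h
    exact ⟨_, h, by simp [MulAut.conj_apply, mul_assoc]⟩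

theorem conj_eq_one_or {g a z : G} (h : g⁻¹ * a * g = 1 ∨ g⁻¹ * a * g = z) : a = 1 ∨ a = g * z * g⁻¹ := by
  rcases h with h | h
  · left
    calc a = g * (g⁻¹ * a * g) * g⁻¹ := by group
      _ = 1 := by rw [h]; group
  · right
    rw [← h]; group

theorem ES.conj {Q : Subgroup G} {z : G} (h : ES Q z) (g : G) :
    ES (Q.map (MulAut.conj g).toMonoidHom) (g * z * g⁻¹) := by
  refine ⟨?_, ?_, ?_, ?_, ?_, ?_, ?_, ?_⟩
  · rw [mem_map_conj_iff]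
    have : g⁻¹ * (g * z * g⁻¹) * g = z := by group
    rw [this]; exact h.mem
  · intro h1
    apply h.ne
    calc z = g⁻¹ * (g * z * g⁻¹) * g := by group
      _ = 1 := by rw [h1]; group
  · calc g * z * g⁻¹ * (g * z * g⁻¹) = g * (z * z) * g⁻¹ := by group
      _ = 1 := by rw [h.sq]; group
  · intro q hq
    rw [mem_map_conj_iff] at hq
    have := h.cen _ hq
    calc q * (g * z * g⁻¹) = g * ((g⁻¹ * q * g) * z) * g⁻¹ := by group
      _ = g * (z * (g⁻¹ * q * g)) * g⁻¹ := by rw [this]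
      _ = g * z * g⁻¹ * q := by group
  · intro x hx y hy
    rw [mem_map_conj_iff] at hx hy
    apply conj_eq_one_or
    have := h.comm _ hx _ hy
    have e : g⁻¹ * (x * y * x⁻¹ * y⁻¹) * g = g⁻¹ * x * g * (g⁻¹ * y * g) * (g⁻¹ * x * g)⁻¹ * (g⁻¹ * y * g)⁻¹ := by
      group
    rw [e]; exact this
  · intro x hx
    rw [mem_map_conj_iff] at hx
    apply conj_eq_one_or
    have := h.sqs _ hx
    have e : g⁻¹ * (x * x) * g = g⁻¹ * x * g * (g⁻¹ * x * g) := by group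
    rw [e]; exact this
  · intro x hx
    apply conj_eq_one_or
    apply h.cent
    intro q hq
    have h1 : g * q * g⁻¹ ∈ Q.map (MulAut.conj g).toMonoidHom := by
      rw [mem_map_conj_iff]
      have : g⁻¹ * (g * q * g⁻¹) * g = q := by group
      rw [this]; exact hq
    have := hx _ h1
    calc q * (g⁻¹ * x * g) = g⁻¹ * ((g * q * g⁻¹) * x) * g := by group
      _ = g⁻¹ * (x * (g * q * g⁻¹)) * g := by rw [this]
      _ = g⁻¹ * x * g * q := by group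
  · intro x hx q hq
    rw [mem_map_conj_iff] at hq ⊢
    have h1 : (g⁻¹ * x * g) * z = z * (g⁻¹ * x * g) := by
      calc (g⁻¹ * x * g) * z = g⁻¹ * (x * (g * z * g⁻¹)) * g := by group
        _ = g⁻¹ * ((g * z * g⁻¹) * x) * g := by rw [hx]
        _ = z * (g⁻¹ * x * g) := by group
    have := h.nor _ h1 _ hq
    have e : g⁻¹ * (x * q * x⁻¹) * g = g⁻¹ * x * g * (g⁻¹ * q * g) * (g⁻¹ * x * g)⁻¹ := by group
    rw [e]; exact this

variable {Q R : Subgroup G} {z y : G}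

theorem comm_of_commutator_eq_one {a b : G} (h : a * b * a⁻¹ * b⁻¹ = 1) : a * b = b * a := by
  calc a * b = (a * b * a⁻¹ * b⁻¹) * (b * a) := by group
    _ = b * a := by rw [h, one_mul]

theorem ES.exists_conj (h : ES Q z) {b : G} (hb : b ∈ Q) (hb1 : b ≠ 1) (hbz : b ≠ z) :
    ∃ q ∈ Q, q * b * q⁻¹ = z * b := by
  by_contra hcon
  push Not at hcon
  have h2 : ∀ q ∈ Q, q * b = b * q := by
    intro q hq
    rcases h.comm q hq b hb with h1 | h1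
    · exact comm_of_commutator_eq_one h1
    · exfalso; apply hcon q hq; rw [← h1]; group
  rcases h.cent b h2 with h1 | h1
  · exact hb1 h1
  · exact hbz h1

theorem ES.coset (h : ES Q z) (hy : y ∈ Q) {q₀ : G} (hq₀y : q₀ * y * q₀⁻¹ = z * y) {q : G} (hq : q ∈ Q) :
    q * y = y * q ∨ (q₀⁻¹ * q) * y = y * (q₀⁻¹ * q) := by
  rcases h.comm q hq y hy with h1 | h1
  · left; exact comm_of_commutator_eq_one h1
  · right
    have h2 : q * y * q⁻¹ = q₀ * y * q₀⁻¹ := by rw [hq₀y, ← h1]; group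
    calc q₀⁻¹ * q * y = q₀⁻¹ * (q * y * q⁻¹) * q := by group
      _ = q₀⁻¹ * (q₀ * y * q₀⁻¹) * q := by rw [h2]
      _ = y * (q₀⁻¹ * q) := by group

/-- `C_Q(C_Q(y)) = ⟨z, y⟩`. -/
theorem ES.centralizer_U (h : ES Q z) (hy : y ∈ Q) (hyy : y * y = 1) (hy1 : y ≠ 1) (hyz : y ≠ z)
    {c : G} (hc : c ∈ Q) (hcU : ∀ u ∈ Q, u * y = y * u → u * c = c * u) :
    c = 1 ∨ c = z ∨ c = y ∨ c = z * y := by
  obtain ⟨q₀, hq₀, hq₀y⟩ := h.exists_conj hy hy1 hyz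
  have hcentral : ∀ x : G, (∀ u ∈ Q, u * y = y * u → u * x = x * u) → q₀ * x = x * q₀ → x = 1 ∨ x = z := by
    intro x hxU hx0
    apply h.cent
    intro q hq
    rcases h.coset hy hq₀y hq with h1 | h1
    · exact hxU q hq h1
    · have h2 := hxU _ (Q.mul_mem (Q.inv_mem hq₀) hq) h1
      calc q * x = q₀ * ((q₀⁻¹ * q) * x) := by group
        _ = q₀ * (x * (q₀⁻¹ * q)) := by rw [h2]
        _ = (q₀ * x) * (q₀⁻¹ * q) := by group
        _ = x * q := by rw [hx0]; group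
  rcases h.comm q₀ hq₀ c hc with h1 | h1
  · rcases hcentral c hcU (comm_of_commutator_eq_one h1) with h2 | h2
    · exact Or.inl h2
    · exact Or.inr (Or.inl h2)
  · have h2 : q₀ * c * q₀⁻¹ = z * c := by rw [← h1]; group
    have h3 : q₀ * (c * y) = (c * y) * q₀ := by
      have hzc : c * z = z * c := h.cen c hc
      calc q₀ * (c * y) = (q₀ * c * q₀⁻¹) * (q₀ * y * q₀⁻¹) * q₀ := by group
        _ = z * c * (z * y) * q₀ := by rw [h2, hq₀y]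
        _ = z * (c * z) * y * q₀ := by group
        _ = (z * z) * c * y * q₀ := by rw [hzc]; group
        _ = c * y * q₀ := by rw [h.sq, one_mul]
    have h4 : ∀ u ∈ Q, u * y = y * u → u * (c * y) = (c * y) * u := by
      intro u hu huy
      calc u * (c * y) = (u * c) * y := by group
        _ = c * (u * y) := by rw [hcU u hu huy]; group
        _ = c * y * u := by rw [huy]; group
    have h6 : c = (c * y) * y := by rw [mul_assoc, hyy, mul_one]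
    rcases hcentral _ h4 h3 with h5 | h5
    · right; right; left
      rw [h6, h5, one_mul]
    · right; right; right
      rw [h6, h5]

/-- The key step: if `y ∈ Q` is the central involution of `R` and `Q` is not too small, then `z ∈ R`. -/
theorem ES.key [Finite G] (hQ : ES Q z) (hR : ES R y) (hyQ : y ∈ Q) (hyz : y ≠ z) (hbig : 8 < Nat.card Q)
    (hswap : ∀ s : G, s * z * s⁻¹ = y → s * y * s⁻¹ = z → z ∈ R) : z ∈ R := by
  by_contra hzR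
  have hyy := hR.sq
  have hy1 := hR.ne
  have hzy : y * z = z * y := hQ.cen y hyQ
  have hzi : z⁻¹ = z := inv_eq_of_mul_eq_one_left hQ.sq
  obtain ⟨Y, hY⟩ : ∃ Y : Subgroup G, ∀ x, x ∈ Y ↔ x = 1 ∨ x = y := ⟨twoSub y hyy, fun _ => Iff.rfl⟩
  have hYc : ∀ e ∈ Y, ∀ r ∈ R, r * e = e * r := by
    intro e he r hr
    rcases (hY e).1 he with rfl | rfl
    · simp
    · exact hR.cen r hr
  have hUR : ∀ u, u * y = y * u → ∀ r ∈ R, u * r * u⁻¹ ∈ R := hR.nor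
  have F2 : ∀ d ∈ Q, d ∈ R → d ∈ Y := by
    intro d hdQ hdR
    have h1 : ∀ u ∈ Q, u * y = y * u → u * d = d * u := by
      intro u hu huy
      rcases hQ.comm u hu d hdQ with h | h
      · exact comm_of_commutator_eq_one h
      · exfalso; apply hzR; rw [← h]; exact R.mul_mem (hUR u huy d hdR) (R.inv_mem hdR)
    rw [hY]
    rcases hQ.centralizer_U hyQ hyy hy1 hyz hdQ h1 with h | h | h | h
    · exact Or.inl h
    · exact absurd (h ▸ hdR) hzR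
    · exact Or.inr h
    · exfalso; apply hzR
      have : z = d * y := by rw [h, mul_assoc, hyy, mul_one]
      rw [this]; exact R.mul_mem hdR hR.mem
  have F3 : ∀ a ∈ R, a * z = z * a → ∀ u ∈ Q, u * y = y * u → u * a * u⁻¹ * a⁻¹ ∈ Y := by
    intro a ha haz u hu huy
    apply F2
    · have : u * a * u⁻¹ * a⁻¹ = u * (a * u⁻¹ * a⁻¹) := by group
      rw [this]; exact Q.mul_mem hu (hQ.nor a haz _ (Q.inv_mem hu))
    · exact R.mul_mem (hUR u huy a ha) (R.inv_mem ha)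
  obtain ⟨q₀, hq₀, hq₀y⟩ := hQ.exists_conj hyQ hy1 hyz
  have F4 : ∀ r ∈ R, r * z * r⁻¹ * z⁻¹ ∈ Y → r * z = z * r := by
    intro r hr h
    rcases (hY _).1 h with h | h
    · exact comm_of_commutator_eq_one h
    · exfalso; apply hzR
      have hrz : r * z * r⁻¹ = y * z := by rw [← h]; group
      have hry : r * y * r⁻¹ = y := by rw [hR.cen r hr]; group
      have hq₀z : q₀ * z * q₀⁻¹ = z := by rw [hQ.cen q₀ hq₀]; group
      have hq₀z' : q₀⁻¹ * z * q₀ = z := by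
        calc q₀⁻¹ * z * q₀ = q₀⁻¹ * (q₀ * z * q₀⁻¹) * q₀ := by rw [hq₀z]
          _ = z := by group
      have hq₀y' : q₀⁻¹ * y * q₀ = z * y := by
        have h3 : q₀ * (z * y) * q₀⁻¹ = y := by
          calc q₀ * (z * y) * q₀⁻¹ = (q₀ * z * q₀⁻¹) * (q₀ * y * q₀⁻¹) := by group
            _ = z * (z * y) := by rw [hq₀z, hq₀y]
            _ = y := by rw [← mul_assoc, hQ.sq, one_mul]
        calc q₀⁻¹ * y * q₀ = q₀⁻¹ * (q₀ * (z * y) * q₀⁻¹) * q₀ := by rw [h3]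
          _ = z * y := by group
      apply hswap (q₀ * r * q₀⁻¹)
      · calc q₀ * r * q₀⁻¹ * z * (q₀ * r * q₀⁻¹)⁻¹ = q₀ * (r * (q₀⁻¹ * z * q₀) * r⁻¹) * q₀⁻¹ := by group
          _ = q₀ * (y * z) * q₀⁻¹ := by rw [hq₀z', hrz]
          _ = (q₀ * y * q₀⁻¹) * (q₀ * z * q₀⁻¹) := by group
          _ = z * y * z := by rw [hq₀y, hq₀z]
          _ = y := by rw [mul_assoc, hzy, ← mul_assoc, hQ.sq, one_mul]
      · calc q₀ * r * q₀⁻¹ * y * (q₀ * r * q₀⁻¹)⁻¹ = q₀ * (r * (q₀⁻¹ * y * q₀) * r⁻¹) * q₀⁻¹ := by group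
          _ = q₀ * ((r * z * r⁻¹) * (r * y * r⁻¹)) * q₀⁻¹ := by rw [hq₀y']; group
          _ = q₀ * (y * z * y) * q₀⁻¹ := by rw [hrz, hry]
          _ = q₀ * z * q₀⁻¹ := by rw [hzy, mul_assoc z y y, hyy, mul_one]
          _ = z := hq₀z
  have hzR' : ∀ r ∈ R, z * r * z⁻¹ ∈ R := hUR z hzy.symm
  have F5 : ∀ r ∈ R, r * z * r⁻¹ * z⁻¹ ∈ R ∧ (r * z * r⁻¹ * z⁻¹) * z = z * (r * z * r⁻¹ * z⁻¹) := by
    intro r hr
    have hc : r * z * r⁻¹ * z⁻¹ ∈ R := by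
      have : r * z * r⁻¹ * z⁻¹ = r * (z * r⁻¹ * z⁻¹) := by group
      rw [this]; exact R.mul_mem hr (hzR' _ (R.inv_mem hr))
    refine ⟨hc, F4 _ hc ?_⟩
    obtain ⟨c, hcdef⟩ : ∃ c, c = r * z * r⁻¹ * z⁻¹ := ⟨_, rfl⟩
    rw [← hcdef] at hc ⊢
    have h1 : z * c⁻¹ * z⁻¹ = c := by
      calc z * c⁻¹ * z⁻¹ = (z * z) * r * z⁻¹ * r⁻¹ * z⁻¹ := by rw [hcdef]; group
        _ = r * z⁻¹ * r⁻¹ * z⁻¹ := by rw [hQ.sq, one_mul]
        _ = c := by rw [hcdef, hzi]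
    have h2 : c * z * c⁻¹ * z⁻¹ = c * c := by
      calc c * z * c⁻¹ * z⁻¹ = c * (z * c⁻¹ * z⁻¹) := by group
        _ = c * c := by rw [h1]
    rw [h2, hY]
    exact hR.sqs c hc
  have F6 : ∀ u ∈ Q, u * y = y * u → ∀ r ∈ R, u * r * u⁻¹ * r⁻¹ ∈ R ∧
      (u * r * u⁻¹ * r⁻¹) * z = z * (u * r * u⁻¹ * r⁻¹) := by
    intro u hu huy r hr
    have hd : u * r * u⁻¹ * r⁻¹ ∈ R := R.mul_mem (hUR u huy r hr) (R.inv_mem hr)
    refine ⟨hd, F4 _ hd ?_⟩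
    obtain ⟨hc, hcz⟩ := F5 r hr
    obtain ⟨c, hcdef⟩ : ∃ c, c = r * z * r⁻¹ * z⁻¹ := ⟨_, rfl⟩
    obtain ⟨d, hddef⟩ : ∃ d, d = u * r * u⁻¹ * r⁻¹ := ⟨_, rfl⟩
    rw [← hcdef] at hc hcz
    rw [← hddef] at hd ⊢
    have huz : u * z * u⁻¹ = z := by rw [hQ.cen u hu]; group
    have e1 : u * c * u⁻¹ * c⁻¹ ∈ Y := F3 c hc hcz u hu huy
    have e2 : d * c⁻¹ * d⁻¹ * c⁻¹⁻¹ ∈ Y := (hY _).2 (hR.comm d hd c⁻¹ (R.inv_mem hc))
    have hucu : u * c * u⁻¹ = d * r * z * r⁻¹ * d⁻¹ * z⁻¹ := by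
      calc u * c * u⁻¹ = (u * r * u⁻¹) * (u * z * u⁻¹) * (u * r * u⁻¹)⁻¹ * (u * z * u⁻¹)⁻¹ := by
            rw [hcdef]; group
        _ = (u * r * u⁻¹) * z * (u * r * u⁻¹)⁻¹ * z⁻¹ := by rw [huz]
        _ = d * r * z * r⁻¹ * d⁻¹ * z⁻¹ := by rw [hddef]; group
    have key : d * z * d⁻¹ * z⁻¹ = (d * c⁻¹ * d⁻¹ * c⁻¹⁻¹) * (u * c * u⁻¹ * c⁻¹) := by
      have h3 : c⁻¹ * (u * c * u⁻¹ * c⁻¹) * c = u * c * u⁻¹ * c⁻¹ := by
        rw [mul_assoc, ← hYc _ e1 c hc]; group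
      calc d * z * d⁻¹ * z⁻¹ = d * c⁻¹ * d⁻¹ * (d * r * z * r⁻¹ * d⁻¹ * z⁻¹) := by rw [hcdef]; group
        _ = d * c⁻¹ * d⁻¹ * (u * c * u⁻¹) := by rw [hucu]
        _ = (d * c⁻¹ * d⁻¹ * c⁻¹⁻¹) * (c⁻¹ * (u * c * u⁻¹ * c⁻¹) * c) := by group
        _ = _ := by rw [h3]
    rw [key]
    exact Y.mul_mem e2 e1
  have F7 : ∃ u₁ ∈ Q, ∃ u₂ ∈ Q, u₁ * y = y * u₁ ∧ u₂ * y = y * u₂ ∧ u₁ * u₂ * u₁⁻¹ * u₂⁻¹ = z := by
    by_contra hcon
    push Not at hcon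
    have hab : ∀ u₁ ∈ Q, u₁ * y = y * u₁ → ∀ u₂ ∈ Q, u₂ * y = y * u₂ → u₂ * u₁ = u₁ * u₂ := by
      intro u₁ h1 h1y u₂ h2 h2y
      rcases hQ.comm u₂ h2 u₁ h1 with h | h
      · exact comm_of_commutator_eq_one h
      · exact absurd h (hcon u₂ h2 u₁ h1 h2y h1y)
    have hU4 : ∀ u ∈ Q, u * y = y * u → u = 1 ∨ u = z ∨ u = y ∨ u = z * y := fun u hu huy =>
      hQ.centralizer_U hyQ hyy hy1 hyz hu (fun u' hu' hu'y => hab u hu huy u' hu' hu'y)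
    classical
    have hsub : (Q : Set G) ⊆ ↑({q₀, q₀ * z, q₀ * y, q₀ * (z * y), 1, z, y, z * y} : Finset G) := by
      intro q hq
      simp only [Finset.coe_insert, Finset.coe_singleton, Set.mem_insert_iff, Set.mem_singleton_iff]
      rcases hQ.coset hyQ hq₀y hq with h | h
      · rcases hU4 q hq h with h | h | h | h <;> simp [h]
      · have e : ∀ x, q₀⁻¹ * q = x → q = q₀ * x := fun x hx => by rw [← hx]; group
        rcases hU4 _ (Q.mul_mem (Q.inv_mem hq₀) hq) h with h | h | h | h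
        · left; simpa using e _ h
        · right; left; exact e _ h
        · right; right; left; exact e _ h
        · right; right; right; left; exact e _ h
    have hle : Nat.card Q ≤ 8 := by
      calc Nat.card Q = (Q : Set G).ncard := rfl
        _ ≤ (↑({q₀, q₀ * z, q₀ * y, q₀ * (z * y), 1, z, y, z * y} : Finset G) : Set G).ncard :=
          Set.ncard_le_ncard hsub (Finset.finite_toSet _)
        _ = Finset.card _ := Set.ncard_coe_finset _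
        _ ≤ 8 := (Finset.card_insert_le _ _).trans (Nat.succ_le_succ
          ((Finset.card_insert_le _ _).trans (Nat.succ_le_succ Finset.card_le_six)))
    omega
  obtain ⟨u₁, h1, u₂, h2, h1y, h2y, h12⟩ := F7
  have F8 : ∀ r ∈ R, r * z = z * r := by
    intro r hr
    apply F4 r hr
    have hwy : (u₂ * u₁)⁻¹ * y = y * (u₂ * u₁)⁻¹ := by
      have : (u₂ * u₁) * y = y * (u₂ * u₁) := by
        calc u₂ * u₁ * y = u₂ * (u₁ * y) := by group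
          _ = (u₂ * y) * u₁ := by rw [h1y]; group
          _ = y * (u₂ * u₁) := by rw [h2y]; group
      calc (u₂ * u₁)⁻¹ * y = (u₂ * u₁)⁻¹ * (y * (u₂ * u₁)) * (u₂ * u₁)⁻¹ := by group
        _ = (u₂ * u₁)⁻¹ * ((u₂ * u₁) * y) * (u₂ * u₁)⁻¹ := by rw [this]
        _ = y * (u₂ * u₁)⁻¹ := by group
    obtain ⟨r₀, hr₀def⟩ : ∃ r₀, r₀ = (u₂ * u₁)⁻¹ * r * (u₂ * u₁)⁻¹⁻¹ := ⟨_, rfl⟩
    have hr₀ : r₀ ∈ R := hr₀def ▸ hUR _ hwy r hr
    have hrr : r = (u₂ * u₁) * r₀ * (u₂ * u₁)⁻¹ := by rw [hr₀def]; group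
    obtain ⟨ha₁, ha₁z⟩ := F6 u₁ h1 h1y r₀ hr₀
    obtain ⟨ha₂, ha₂z⟩ := F6 u₂ h2 h2y r₀ hr₀
    obtain ⟨a₁, ha₁def⟩ : ∃ a₁, a₁ = u₁ * r₀ * u₁⁻¹ * r₀⁻¹ := ⟨_, rfl⟩
    obtain ⟨a₂, ha₂def⟩ : ∃ a₂, a₂ = u₂ * r₀ * u₂⁻¹ * r₀⁻¹ := ⟨_, rfl⟩
    rw [← ha₁def] at ha₁ ha₁z
    rw [← ha₂def] at ha₂ ha₂z
    have e1 : u₁ * a₂ * u₁⁻¹ * a₂⁻¹ ∈ Y := F3 a₂ ha₂ ha₂z u₁ h1 h1y
    have e2 : u₂ * a₁ * u₂⁻¹ * a₁⁻¹ ∈ Y := F3 a₁ ha₁ ha₁z u₂ h2 h2y
    have e3 : a₂ * a₁ * a₂⁻¹ * a₁⁻¹ ∈ Y := (hY _).2 (hR.comm a₂ ha₂ a₁ ha₁)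
    have key : r * z * r⁻¹ * z⁻¹ =
        ((u₁ * a₂ * u₁⁻¹ * a₂⁻¹) * (a₂ * a₁ * a₂⁻¹ * a₁⁻¹) * (u₂ * a₁ * u₂⁻¹ * a₁⁻¹)⁻¹)⁻¹ := by
      rw [← h12, hrr, ha₁def, ha₂def]; group
    rw [key]
    exact Y.inv_mem (Y.mul_mem (Y.mul_mem e1 e3) (Y.inv_mem e2))
  rcases hR.cent z F8 with h | h
  · exact hQ.ne h
  · exact hyz h.symm

end Cfsg.Agent.Lib.Helper27
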