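import Cfsg.Agent.Lib.Helper27.FusInner
import Cfsg.Agent.Lib.Helper26.FusNormal3
import Cfsg.Agent.Lib.Helper26.FusCentric
import Cfsg.Agent.Lib.Helper26.FusChain
import Cfsg.Agent.Lib.Helper26.FusGroup

set_option autoImplicit false

namespace Cfsg.Agent.Lib.Helper27

open Cfsg Cfsg.FusionSystem Cfsg.Agent.Lib.Helper26

variable {Ω : Type*} [Group Ω] {S T : Subgroup Ω}
variable {P Q R N K U : Subgroup Ω} {f g : Ω → Ω} {F : FusionSystem S} {p : ℕ}

/-- A subgroup of `T` normal in `F` is normal in every saturated subsystem of `F` over `T`. -/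
theorem isNormal_of_isNormal_of_subsystem [Finite S] [Fact p.Prime] (hS : IsPGroup p S)
    {E : FusionSystem T} (hE : E.IsSaturated p) (hsub : E.IsSubsystemOf F) (hTS : T ≤ S)
    (hQ : F.IsNormal Q) (hQT : Q ≤ T) : E.IsNormal Q := by
  have : Finite T := finite_of_le hTS
  have hT : IsPGroup p T := hS.to_le hTS
  obtain ⟨hQS, hext⟩ := isNormal_iff.1 hQ
  have hsc : E.StronglyClosed Q := by
    rw [Cfsg.Agent.Lib.Helper26.stronglyClosed_iff]
    refine ⟨hQT, fun R hR f hf x hx => ?_⟩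
    exact (Cfsg.Agent.Lib.Helper26.stronglyClosed_iff.1 (IsNormal.stronglyClosed hQ)).2 R hR f
      (Map.mono hsub hf) x hx
  apply isNormal_of_sc_of_le hT hE hsc
  intro P hPc hPr
  have hPT := hPc.1
  have hcP := hPc.2 P (isConj_refl hPT)
  apply le_of_normalizer_inf_le hT hPT hQT ((hPT.trans hTS).trans (IsNormal.le_normalizer hQ))
  intro a haQ haN
  obtain ⟨γ, hγ⟩ := exists_aut_of_normalizer haN
  refine mem_of_conj_mem_Inn hcP (hQT haQ) hPT hγ ?_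
  rw [← hPr.2]
  have hKT : (P ⊔ Q) ≤ T := sup_le hPT hQT
  refine le_pCore_map (N := autInducedBy (P ⊔ Q) P) ((autInducedBy_mono hKT).trans (autInducedBy_le_autGroup hPT))
    ?_ (isPGroup_autInducedBy (hT.to_le hKT)) (mem_autInducedBy_iff.2 ⟨a, (le_sup_right : Q ≤ P ⊔ Q) haQ, hγ⟩)
  intro α hα δ hδ
  obtain ⟨b, hb, h⟩ := mem_autInducedBy_iff.1 hδ
  obtain ⟨f', hf', h1, h2⟩ := hext P (aev α) (Map.mono hsub ((mem_autGroup_iff hPT).1 hα))
  have hfb : f' b ∈ P ⊔ Q := by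
    have : im f' (P ⊔ Q) = P ⊔ Q := by rw [hf'.im_sup, h2, im_congr h1, im_aev]
    rw [← this]
    exact mem_im_of_mem hb
  refine mem_autInducedBy_iff.2 ⟨f' b, hfb, fun y hy => ?_⟩
  have hy' : y = aev α (aev α⁻¹ y) := (aev_apply_inv α hy).symm
  have hx := aev_mem_self α⁻¹ hy
  have hle : P ≤ P ⊔ Q := le_sup_left
  conv_lhs => rw [hy']
  rw [aev_conj_aut h hx, ← h1 _ (conj_mem_of_normalizer (normalizer_of_aut h) hx),
    hf'.map_conj hb (hle hx), h1 _ hx, ← hy']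

/-- the elements of `S` inducing on `Q` an automorphism in `B` -/
def preAut (S Q : Subgroup Ω) (B : Subgroup (MulAut Q)) : Subgroup Ω where
  carrier := {x | x ∈ S ∧ ∃ β ∈ B, ∀ y ∈ Q, aev β y = x * y * x⁻¹}
  one_mem' := ⟨S.one_mem, 1, B.one_mem, fun y hy => by rw [aev_one hy]; simp⟩
  mul_mem' := by
    rintro a b ⟨ha, α, hα, h1⟩ ⟨hb, β, hβ, h2⟩
    refine ⟨S.mul_mem ha hb, α * β, B.mul_mem hα hβ, fun y hy => ?_⟩
    rw [aev_mul _ _ hy, h1 _ (aev_mem_self β hy), h2 _ hy]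
    group
  inv_mem' := by
    rintro a ⟨ha, α, hα, h1⟩
    refine ⟨S.inv_mem ha, α⁻¹, B.inv_mem hα, fun y hy => ?_⟩
    have h2 := h1 _ (aev_mem_self α⁻¹ hy)
    rw [aev_apply_inv α hy] at h2
    calc aev α⁻¹ y = a⁻¹ * (a * aev α⁻¹ y * a⁻¹) * a := by group
      _ = a⁻¹ * y * a⁻¹⁻¹ := by rw [← h2, inv_inv]

theorem mem_preAut {B : Subgroup (MulAut Q)} {x : Ω} :
    x ∈ preAut S Q B ↔ x ∈ S ∧ ∃ β ∈ B, ∀ y ∈ Q, aev β y = x * y * x⁻¹ := Iff.rfl

/-- If `Q` is normal and centric in `F` and `B` is a normal `p`-subgroup of `Aut_F(Q)`, the preimage of `B` in `S`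
is normal in `F`. -/
theorem isNormal_preAut [Finite S] [Fact p.Prime] (hS : IsPGroup p S) (hF : F.IsSaturated p)
    (hQ : F.IsNormal Q) (hQc : F.IsCentric Q) {B : Subgroup (MulAut Q)} (hBA : B ≤ F.autGroup Q)
    (hBn : ∀ a ∈ F.autGroup Q, ∀ b ∈ B, a * b * a⁻¹ ∈ B) (hBp : IsPGroup p B) :
    F.IsNormal (preAut S Q B) := by
  obtain ⟨hQS, hext⟩ := isNormal_iff.1 hQ
  have hSN : S ≤ Subgroup.normalizer (Q : Set Ω) := IsNormal.le_normalizer hQ
  have hfn : F.IsFullyNormalized Q :=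
    WeaklyClosed.isFullyNormalized (StronglyClosed.weaklyClosed (IsNormal.stronglyClosed hQ))
  have hfa := sat_fa_of_fn hS hF hfn
  have hrec := sat_rec_of_fc hS hF (sat_fc_of_fn hS hF hfn)
  have hsyl : IsSylowIn p (autInducedBy S Q) (F.autGroup Q) := (isFullyAutomized_iff.1 hfa).2
  have hfin : Finite (F.autGroup Q) := finite_autGroup hQS
  have hBS : B ≤ autInducedBy S Q := by
    apply normal_pSubgroup_le_sylowIn hsyl hBA hBp
    intro a ha
    apply Cfsg.Agent.Lib.Helper26.grp_mem_normalizer_of_conj (hBn a ha)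
    intro y hy
    have := hBn a⁻¹ ((F.autGroup Q).inv_mem ha) y hy
    rwa [inv_inv] at this
  have hQ₁S : preAut S Q B ≤ S := fun x hx => hx.1
  rw [isNormal_iff]
  refine ⟨hQ₁S, fun P f hf => ?_⟩
  obtain ⟨f₁, hf₁, e1, e2⟩ := hext P f hf
  obtain ⟨α, hα, hαf⟩ := (hf₁.restrict (le_sup_right : Q ≤ P ⊔ Q)).exists_aut e2
  have hαm := (mem_autGroup_iff hQS).1 hα
  obtain ⟨-, hr⟩ := isReceptive_iff.1 hrec
  obtain ⟨g, hg, hgα⟩ := hr Q (aev α) hαm (im_aev α)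
  have hPQ : P ⊔ Q ≤ Nf S Q (aev α) := by
    intro a ha
    rw [mem_Nf_iff]
    refine ⟨hf₁.le ha, hSN (hf₁.le ha), f₁ a, hf₁.mem_S ha, fun y hy => ?_⟩
    have hyQ : y ∈ P ⊔ Q := (le_sup_right : Q ≤ P ⊔ Q) hy
    rw [hαf _ (conj_mem_of_normalizer (hSN (hf₁.le ha)) hy), hαf y hy, hf₁.map_conj ha hyQ]
  have hQ₁N : preAut S Q B ≤ Nf S Q (aev α) := by
    rintro a ⟨ha, β, hβ, h1⟩
    rw [mem_Nf_iff]
    obtain ⟨b, hb, h2⟩ := mem_autInducedBy_iff.1 (hBS (hBn α hα β hβ))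
    refine ⟨ha, hSN ha, b, hb, fun y hy => ?_⟩
    rw [← aev_conj_aut h1 hy, h2 _ (aev_mem_self α hy)]
  have hgPQ := hg.restrict hPQ
  obtain ⟨z, hz, -, hzc⟩ := exists_center_conj_normal hS hF (le_sup_right : Q ≤ P ⊔ Q)
    (hf₁.le.trans hSN) hQc hgPQ hf₁ (fun x hx => by rw [hgα x hx, hαf x hx])
  have hzN : z ∈ Nf S Q (aev α) := le_Nf hαm hz
  have hf' : Map F (Nf S Q (aev α)) (g ∘ cj z) :=
    (Map.conj Nf_le_S (hQS hz)).comp hg (fun x hx =>
      Subgroup.mul_mem _ (Subgroup.mul_mem _ hzN hx) (Subgroup.inv_mem _ hzN))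
  have hf'PQ : ∀ y ∈ P ⊔ Q, (g ∘ cj z) y = f₁ y := fun y hy => (hzc y hy).symm
  have hle : P ⊔ preAut S Q B ≤ Nf S Q (aev α) := sup_le (le_sup_left.trans hPQ) hQ₁N
  refine ⟨g ∘ cj z, hf'.restrict hle, fun x hx => ?_, ?_⟩
  · rw [hf'PQ x ((le_sup_left : P ≤ P ⊔ Q) hx), e1 x hx]
  · have : Finite (preAut S Q B) := finite_of_le hQ₁S
    apply Subgroup.eq_of_le_of_card_ge _ (hf'.restrict hQ₁N).card_im.ge
    rw [im_le_iff]
    rintro x hx
    obtain ⟨hxS, β, hβ, h1⟩ := hx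
    have hxN : x ∈ Nf S Q (aev α) := hQ₁N ⟨hxS, β, hβ, h1⟩
    refine ⟨hf'.mem_S hxN, α * β * α⁻¹, hBn α hα β hβ, fun y hy => ?_⟩
    have hy' : y = aev α (aev α⁻¹ y) := (aev_apply_inv α hy).symm
    have hy0 := aev_mem_self α⁻¹ hy
    have hQN : Q ≤ Nf S Q (aev α) := le_Nf hαm
    have e3 : ∀ w ∈ Q, (g ∘ cj z) w = aev α w := fun w hw => by
      rw [hf'PQ w ((le_sup_right : Q ≤ P ⊔ Q) hw), hαf w hw]
    conv_lhs => rw [hy']
    rw [aev_conj_aut h1 hy0, ← e3 _ (conj_mem_of_normalizer (hSN hxS) hy0),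
      hf'.map_conj hxN (hQN hy0), e3 _ hy0, ← hy']

theorem pCore_map_conj_mem {M : Type*} [Group M] (A : Subgroup M) (p : ℕ) :
    ∀ a ∈ A, ∀ b ∈ (pCore p A).map A.subtype, a * b * a⁻¹ ∈ (pCore p A).map A.subtype := by
  rintro a ha _ ⟨n, hn, rfl⟩
  refine ⟨⟨a, ha⟩ * n * ⟨a, ha⟩⁻¹, (pCore_normal (G := A) p).conj_mem n hn _, ?_⟩
  simp only [Subgroup.subtype_apply, Subgroup.coe_mul, Subgroup.coe_inv]

/-- In a constrained system, `O_p(F)` is normal, centric and radical. -/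
theorem core_props_of_constrained [Finite S] [Fact p.Prime] (hS : IsPGroup p S) (hF : F.IsConstrained p) :
    F.IsNormal F.core ∧ F.IsCentric F.core ∧ F.IsRadical p F.core := by
  obtain ⟨hsat, Q₀, hQ₀, hQ₀c⟩ := hF
  have hQ : F.IsNormal F.core := isNormal_core F
  have hQc : F.IsCentric F.core := IsCentric.of_le hQ₀c (le_sSup hQ₀) hQ.1
  refine ⟨hQ, hQc, hQ.1, ?_⟩
  have hfin : Finite (F.autGroup F.core) := finite_autGroup hQ.1
  set B := (pCore p (F.autGroup F.core)).map (F.autGroup F.core).subtype with hB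
  have hBA : B ≤ F.autGroup F.core := by
    rintro _ ⟨x, -, rfl⟩
    exact x.2
  have hBp : IsPGroup p B := (pCore_isPGroup (G := F.autGroup F.core)).map _
  have hBn : ∀ a ∈ F.autGroup F.core, ∀ b ∈ B, a * b * a⁻¹ ∈ B := pCore_map_conj_mem _ p
  have hN := isNormal_preAut hS hsat hQ hQc hBA hBn hBp
  have hle : preAut S F.core B ≤ F.core := le_sSup hN
  have hfn : F.IsFullyNormalized F.core :=
    WeaklyClosed.isFullyNormalized (StronglyClosed.weaklyClosed (IsNormal.stronglyClosed hQ))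
  have hsyl : IsSylowIn p (autInducedBy S F.core) (F.autGroup F.core) :=
    (isFullyAutomized_iff.1 (sat_fa_of_fn hS hsat hfn)).2
  have hBS : B ≤ autInducedBy S F.core := by
    apply normal_pSubgroup_le_sylowIn hsyl hBA hBp
    intro a ha
    apply Cfsg.Agent.Lib.Helper26.grp_mem_normalizer_of_conj (hBn a ha)
    intro y hy
    have := hBn a⁻¹ ((F.autGroup F.core).inv_mem ha) y hy
    rwa [inv_inv] at this
  apply le_antisymm
  · intro β hβ
    obtain ⟨a, ha, h1⟩ := mem_autInducedBy_iff.1 (hBS hβ)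
    exact mem_Inn_iff.2 ⟨a, hle ⟨ha, β, hβ, h1⟩, h1⟩
  · apply le_pCore_map (Inn_le_autGroup hQ.1)
    · intro a _ n hn
      have : (Inn F.core).Normal := by unfold Inn; infer_instance
      exact this.conj_mem n hn a
    · rw [Inn_eq_autInducedBy]
      exact isPGroup_autInducedBy (hS.to_le hQ.1)

end Cfsg.Agent.Lib.Helper27
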