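import Cfsg.Agent.Lib.Helper27.ZCor
import Cfsg.Agent.Lib.Helper9.Basic
import Cfsg.Prelude.Def_CaseTheorems

set_option autoImplicit false
open scoped Pointwise

namespace Cfsg.Agent.Lib.Helper27.ZCor

open Cfsg.Agent.Lib.Helper27

variable {G : Type*} [Group G]

/-- Sylow's theorem inside a subgroup `H` containing the Sylow subgroup `T` of `G`. -/
theorem sylow_conj_mem_sub [Finite G] {p : ℕ} [Fact p.Prime] (H : Subgroup G) (T : Sylow p G)
    (hT : (T : Subgroup G) ≤ H) (K : Subgroup G) (hK : IsPGroup p K) (hKH : K ≤ H) :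
    ∃ k ∈ H, ∀ u ∈ K, k * u * k⁻¹ ∈ T := by
  obtain ⟨k, hk⟩ := sylow_conj_mem (T.subtype hT) (K.subgroupOf H) (hK.comap_subtype)
  refine ⟨k, k.2, fun u hu => ?_⟩
  have h1 := hk ⟨u, hKH hu⟩ (by rw [Subgroup.mem_subgroupOf]; exact hu)
  have h2 : k * ⟨u, hKH hu⟩ * k⁻¹ ∈ ((T.subtype hT : Sylow p H) : Subgroup H) := h1
  rw [Sylow.coe_subtype, Subgroup.mem_subgroupOf] at h2
  have h3 : (k : G) * u * (k : G)⁻¹ ∈ (T : Subgroup G) := by simpa using h2
  exact h3

theorem mem_smul_sylow {p : ℕ} (S : Sylow p G) (g y : G) : y ∈ g • S ↔ g⁻¹ * y * g ∈ S := by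
  have h2 : ((g • S : Sylow p G) : Subgroup G) = MulAut.conj g • (S : Subgroup G) := rfl
  change y ∈ ((g • S : Sylow p G) : Subgroup G) ↔ _
  rw [h2, Subgroup.mem_pointwise_smul_iff_inv_smul_mem]
  simp [MulAut.smul_def]
  rfl

theorem sylow_conj_iff [Finite G] {p : ℕ} [Fact p.Prime] (U T : Sylow p G) (k : G)
    (h : ∀ u ∈ U, k * u * k⁻¹ ∈ T) (y : G) : y ∈ U ↔ k * y * k⁻¹ ∈ T := by
  have h1 : ((k • U : Sylow p G) : Subgroup G) ≤ T := by
    intro z hz
    have hz' : z ∈ k • U := hz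
    rw [mem_smul_sylow] at hz'
    have := h _ hz'
    have e : k * (k⁻¹ * z * k) * k⁻¹ = z := by group
    rwa [e] at this
  have h2 : (T : Subgroup G) = ((k • U : Sylow p G) : Subgroup G) := (k • U).is_maximal' T.2 h1
  constructor
  · exact h y
  · intro hy
    have hy' : k * y * k⁻¹ ∈ (T : Subgroup G) := hy
    rw [h2] at hy'
    have hy'' : k * y * k⁻¹ ∈ k • U := hy'
    rw [mem_smul_sylow] at hy''
    have e : k⁻¹ * (k * y * k⁻¹) * k = y := by group
    rwa [e] at hy''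

section

variable (S : Sylow 2 G) (c : G)

/-- `x` is the distinguished involution of the Sylow subgroup `T`. -/
def Dist (T : Sylow 2 G) (x : G) : Prop :=
  ∃ h : G, (∀ y, y ∈ T ↔ h⁻¹ * y * h ∈ S) ∧ x = h * c * h⁻¹

theorem dist_smul (g : G) : Dist S c (g • S) (g * c * g⁻¹) :=
  ⟨g, fun y => mem_smul_sylow S g y, rfl⟩

theorem dist_self : Dist S c S c := ⟨1, fun y => by simp, by simp⟩

variable {S c}

theorem Dist.unique (hF : ∀ n ∈ Subgroup.normalizer ((S : Subgroup G) : Set G), n * c * n⁻¹ = c)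
    {T : Sylow 2 G} {x x' : G}
    (h : Dist S c T x) (h' : Dist S c T x') : x = x' := by
  obtain ⟨a, ha, rfl⟩ := h
  obtain ⟨b, hb, rfl⟩ := h'
  have hn : a⁻¹ * b ∈ Subgroup.normalizer ((S : Subgroup G) : Set G) := by
    rw [Subgroup.mem_normalizer_iff]
    intro s
    have h1 := hb (b * s * b⁻¹)
    have h2 := ha (b * s * b⁻¹)
    have e1 : b⁻¹ * (b * s * b⁻¹) * b = s := by group
    have e2 : a⁻¹ * (b * s * b⁻¹) * a = a⁻¹ * b * s * (a⁻¹ * b)⁻¹ := by group
    rw [e1] at h1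
    rw [e2] at h2
    exact h1.symm.trans h2
  have h3 := hF _ hn
  calc a * c * a⁻¹ = a * (a⁻¹ * b * c * (a⁻¹ * b)⁻¹) * a⁻¹ := by rw [h3]
    _ = b * c * b⁻¹ := by group

theorem Dist.comm (hF : ∀ n ∈ Subgroup.normalizer ((S : Subgroup G) : Set G), n * c * n⁻¹ = c)
    {T : Sylow 2 G} {x : G} (h : Dist S c T x) {y : G} (hy : y ∈ T) : y * x = x * y := by
  obtain ⟨a, ha, rfl⟩ := h
  have h1 := (ha y).1 hy
  have h2 := hF _ (Subgroup.le_normalizer h1)
  have h3 : y * (a * c * a⁻¹) * y⁻¹ = a * c * a⁻¹ := by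
    calc y * (a * c * a⁻¹) * y⁻¹ = a * (a⁻¹ * y * a * c * (a⁻¹ * y * a)⁻¹) * a⁻¹ := by group
      _ = a * c * a⁻¹ := by rw [h2]
  calc y * (a * c * a⁻¹) = y * (a * c * a⁻¹) * y⁻¹ * y := by group
    _ = a * c * a⁻¹ * y := by rw [h3]

theorem Dist.of_comm [Finite G]
    (hF : ∀ n ∈ Subgroup.normalizer ((S : Subgroup G) : Set G), n * c * n⁻¹ = c)
    {T : Sylow 2 G} {x : G} (h : Dist S c T x) (U : Sylow 2 G) (hU : ∀ u ∈ U, u * x = x * u) :
    Dist S c U x := by
  have hTH : (T : Subgroup G) ≤ Subgroup.centralizer {x} := by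
    intro y hy
    rw [Subgroup.mem_centralizer_iff]
    rintro z rfl
    exact (h.comm hF hy).symm
  have hUH : (U : Subgroup G) ≤ Subgroup.centralizer {x} := by
    intro y hy
    rw [Subgroup.mem_centralizer_iff]
    rintro z rfl
    exact (hU y hy).symm
  obtain ⟨k, hk, hkU⟩ := sylow_conj_mem_sub _ T hTH U U.2 hUH
  have hkx : x * k = k * x := by
    rw [Subgroup.mem_centralizer_iff] at hk
    exact hk x rfl
  have hiff := sylow_conj_iff U T k hkU
  obtain ⟨a, ha, hx⟩ := h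
  refine ⟨k⁻¹ * a, fun y => ?_, ?_⟩
  · rw [hiff y, ha]
    have e : a⁻¹ * (k * y * k⁻¹) * a = (k⁻¹ * a)⁻¹ * y * (k⁻¹ * a) := by group
    rw [e]
  · calc x = k⁻¹ * (k * x) * k⁻¹ * k := by group
      _ = k⁻¹ * x * k := by rw [← hkx]; group
      _ = k⁻¹ * a * c * (k⁻¹ * a)⁻¹ := by rw [hx]; group

end

/-- In a group in which the intersection of two different Sylow 2-subgroups lies in the centre of a
Sylow 2-subgroup, an element of `S` fixed by `N_G(S)` is isolated in `S`. -/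
theorem isolated_of_CI [Finite G]
    (hCI : ∀ S T : Sylow 2 G, S ≠ T → ∃ U : Sylow 2 G,
      (S : Subgroup G) ⊓ (T : Subgroup G) ≤ (Subgroup.center ↥(U : Subgroup G)).map (U : Subgroup G).subtype)
    (S : Sylow 2 G) (c : G)
    (hF : ∀ n ∈ Subgroup.normalizer ((S : Subgroup G) : Set G), n * c * n⁻¹ = c)
    (g : G) (hg : g * c * g⁻¹ ∈ S) : g * c * g⁻¹ = c := by
  set x := g * c * g⁻¹ with hx
  have hT : Dist S c (g • S) x := dist_smul S c g
  have hall : ∀ s ∈ S, s * x = x * s := by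
    by_contra hcon
    push Not at hcon
    obtain ⟨s₀, hs₀, hs₀x⟩ := hcon
    set K : Subgroup G := (S : Subgroup G) ⊓ Subgroup.centralizer {x} with hK
    have hKS : K < (S : Subgroup G) := by
      refine lt_of_le_of_ne inf_le_left ?_
      intro h
      have h1 : s₀ ∈ K := by rw [h]; exact hs₀
      have h2 : s₀ ∈ Subgroup.centralizer {x} := h1.2
      rw [Subgroup.mem_centralizer_iff] at h2
      exact hs₀x (h2 x rfl).symm
    obtain ⟨s, hsS, hsN, hsK⟩ := Cfsg.Agent.Lib.Helper9.exists_mem_normalizer_not_mem S.2 hKS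
    have hxK : x ∈ K := by
      refine ⟨hg, ?_⟩
      change x ∈ Subgroup.centralizer {x}
      rw [Subgroup.mem_centralizer_iff]
      rintro z rfl
      rfl
    have hsxK : s * x * s⁻¹ ∈ K := (Subgroup.mem_normalizer_iff.1 hsN x).1 hxK
    have hTH : ((g • S : Sylow 2 G) : Subgroup G) ≤ Subgroup.centralizer {x} := by
      intro y hy
      rw [Subgroup.mem_centralizer_iff]
      rintro z rfl
      exact (hT.comm hF hy).symm
    obtain ⟨k, hk, hkK⟩ := sylow_conj_mem_sub _ (g • S) hTH K (S.2.to_le inf_le_left) inf_le_right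
    have hkx : x * k = k * x := by
      rw [Subgroup.mem_centralizer_iff] at hk
      exact hk x rfl
    have hV : ∀ u, u ∈ k⁻¹ • (g • S) ↔ k * u * k⁻¹ ∈ g • S := by
      intro u
      rw [mem_smul_sylow, inv_inv]
    have hne : S ≠ k⁻¹ • (g • S) := by
      intro h
      have h1 : s₀ ∈ k⁻¹ • (g • S) := by rw [← h]; exact hs₀
      rw [hV] at h1
      have h2 := hT.comm hF h1
      apply hs₀x
      calc s₀ * x = k⁻¹ * (k * s₀ * k⁻¹ * (k * x)) := by group
        _ = k⁻¹ * (k * s₀ * k⁻¹ * x) * k := by rw [← hkx]; group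
        _ = k⁻¹ * (x * k) * s₀ := by rw [h2]; group
        _ = x * s₀ := by rw [hkx]; group
    obtain ⟨U, hU⟩ := hCI S _ hne
    have hKle : K ≤ (S : Subgroup G) ⊓ ((k⁻¹ • (g • S) : Sylow 2 G) : Subgroup G) := by
      intro u hu
      exact ⟨hu.1, (hV u).2 (hkK u hu)⟩
    have h1 := (mem_center_map_iff _ _).1 (hU (hKle hxK))
    have h2 := (mem_center_map_iff _ _).1 (hU (hKle hsxK))
    have d1 : Dist S c U x := hT.of_comm hF U h1.2
    have d2' : Dist S c ((s * g) • S) (s * x * s⁻¹) := by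
      have := dist_smul S c (s * g)
      have e : s * g * c * (s * g)⁻¹ = s * x * s⁻¹ := by rw [hx]; group
      rwa [e] at this
    have d2 : Dist S c U (s * x * s⁻¹) := d2'.of_comm hF U h2.2
    have h3 := d1.unique hF d2
    apply hsK
    refine ⟨hsS, ?_⟩
    change s ∈ Subgroup.centralizer {x}
    rw [Subgroup.mem_centralizer_iff]
    intro z hz
    rw [Set.mem_singleton_iff] at hz
    rw [hz]
    calc x * s = s * x * s⁻¹ * s := by rw [← h3]
      _ = s * x := by group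
  exact (hT.of_comm hF S hall).unique hF (dist_self S c)

theorem involution_unique_of_isCyclic {C : Type*} [Group C] [Finite C] [IsCyclic C] {a b : C}
    (ha2 : orderOf a = 2) (hb2 : orderOf b = 2) : a = b := by
  classical
  cases nonempty_fintype C
  have hd : 2 ∣ Fintype.card C := by
    have := orderOf_dvd_card (x := a)
    rwa [ha2] at this
  have h := IsCyclic.card_orderOf_eq_totient hd
  rw [Nat.totient_two] at h
  exact Finset.card_le_one.mp h.le a (by simp [ha2]) b (by simp [hb2])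

theorem s3184_of [Finite G] (hZ : ZStarHyp G)
    (hCI : ∀ S T : Sylow 2 G, S ≠ T → ∃ U : Sylow 2 G,
      (S : Subgroup G) ⊓ (T : Subgroup G) ≤ (Subgroup.center ↥(U : Subgroup G)).map (U : Subgroup G).subtype)
    (S : Sylow 2 G) (C : Subgroup ↥(S : Subgroup G)) (hCc : IsCyclic ↥C) (hCh : C.Characteristic)
    (c : ↥(S : Subgroup G)) (hc : c ∈ C) (hc2 : orderOf c = 2) :
    ∀ g : G, (QuotientGroup.mk (s := Cfsg.oddCore G) (g * (c : G) * g⁻¹)) =
      QuotientGroup.mk (s := Cfsg.oddCore G) (c : G) := by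
  have hc2' : orderOf (c : G) = 2 := by rw [Subgroup.orderOf_coe, hc2]
  have hF : ∀ n ∈ Subgroup.normalizer ((S : Subgroup G) : Set G), n * (c : G) * n⁻¹ = c := by
    intro n hn
    have h1 := (Subgroup.characteristic_iff_le_comap.mp hCh (Cfsg.Agent.Lib.Helper1.conjNormalizer n hn)) hc
    have h2 : Cfsg.Agent.Lib.Helper1.conjNormalizer n hn c ∈ C := h1
    have h3 : orderOf (Cfsg.Agent.Lib.Helper1.conjNormalizer n hn c) = 2 := by
      rw [MulEquiv.orderOf_eq, hc2]
    have h4 : (⟨_, h2⟩ : C) = ⟨c, hc⟩ :=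
      involution_unique_of_isCyclic (by rw [Subgroup.orderOf_mk, h3]) (by rw [Subgroup.orderOf_mk, hc2])
    have h5 : Cfsg.Agent.Lib.Helper1.conjNormalizer n hn c = c := congrArg Subtype.val h4
    exact congrArg Subtype.val h5
  obtain ⟨N, hN, hodd, hcN⟩ := hZ S c hc2' c.2 (isolated_of_CI hCI S c hF)
  have hle : N ≤ Cfsg.oddCore G := le_sSup ⟨hN, (Nat.coprime_two_right).2 hodd⟩
  intro g
  rw [QuotientGroup.eq]
  apply hle
  have hci := inv_of_orderOf_two hc2'
  have h1 := N.inv_mem (hcN g)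
  have e : ((c : G) * g * (c : G)⁻¹ * g⁻¹)⁻¹ = (g * (c : G) * g⁻¹)⁻¹ * (c : G) := by
    calc ((c : G) * g * (c : G)⁻¹ * g⁻¹)⁻¹ = g * (c : G) * g⁻¹ * (c : G)⁻¹ := by group
      _ = g * (c : G)⁻¹ * g⁻¹ * (c : G) := by rw [hci]
      _ = (g * (c : G) * g⁻¹)⁻¹ * (c : G) := by group
  rwa [e] at h1

end Cfsg.Agent.Lib.Helper27.ZCor
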