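import Cfsg.Agent.Lib.Helper27.ZCor2

set_option autoImplicit false
open scoped Pointwise commutatorElement

namespace Cfsg.Agent.Lib.Helper27.ZCor

open Cfsg.Agent.Lib.Helper27

variable {Γ : Type*} [Group Γ]

/-- Schur–Zassenhaus in the normalizer of a Sylow subgroup. -/
theorem sylow_normalizer_complement [Finite Γ] {p : ℕ} [Fact p.Prime] (T : Sylow p Γ) :
    ∃ K : Subgroup Γ, K ≤ Subgroup.normalizer ((T : Subgroup Γ) : Set Γ) ∧
      (Nat.card K).Coprime (Nat.card (T : Subgroup Γ)) ∧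
      ∀ n ∈ Subgroup.normalizer ((T : Subgroup Γ) : Set Γ), ∃ t ∈ T, ∃ k ∈ K, n = t * k := by
  set Nn := Subgroup.normalizer ((T : Subgroup Γ) : Set Γ) with hNn
  have hle : (T : Subgroup Γ) ≤ Nn := Subgroup.le_normalizer
  haveI : ((T : Subgroup Γ).subgroupOf Nn).Normal := Subgroup.normal_in_normalizer
  have hcard : Nat.card ((T : Subgroup Γ).subgroupOf Nn) = Nat.card (T : Subgroup Γ) :=
    Nat.card_congr (Subgroup.subgroupOfEquivOfLe hle).toEquiv
  have hidx : ((T : Subgroup Γ).subgroupOf Nn).index ∣ (T : Subgroup Γ).index :=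
    Subgroup.relIndex_dvd_index_of_le hle
  have hcop : (Nat.card ((T : Subgroup Γ).subgroupOf Nn)).Coprime ((T : Subgroup Γ).subgroupOf Nn).index := by
    rw [hcard]
    exact Nat.Coprime.of_dvd_right hidx T.card_coprime_index
  obtain ⟨H, hH⟩ := Subgroup.exists_right_complement'_of_coprime hcop
  refine ⟨H.map Nn.subtype, ?_, ?_, ?_⟩
  · rintro _ ⟨y, -, rfl⟩
    exact y.2
  · rw [Subgroup.card_map_of_injective Nn.subtype_injective]
    have h1 : Nat.card H = ((T : Subgroup Γ).subgroupOf Nn).index := by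
      rw [hH.symm.index_eq_card]
    rw [h1, ← hcard]
    exact hcop.symm
  · intro n hn
    have h2 : (⟨n, hn⟩ : Nn) ∈ ((T : Subgroup Γ).subgroupOf Nn : Set Nn) * (H : Set Nn) := by
      rw [hH.mul_eq]; trivial
    obtain ⟨t, ht, k, hk, htk⟩ := Set.mem_mul.1 h2
    refine ⟨t, ht, k, ⟨k, hk, rfl⟩, ?_⟩
    have := congrArg Subtype.val htk
    simpa using this.symm

/-- a nontrivial `2`-element has a power which is an involution. -/
theorem exists_pow_orderOf_two {c : Γ} {m : ℕ} (hc : c ^ (2 ^ m) = 1) (hc1 : c ≠ 1) :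
    ∃ i : ℕ, orderOf (c ^ i) = 2 := by
  obtain ⟨k, -, hk⟩ := (Nat.dvd_prime_pow Nat.prime_two).1 (orderOf_dvd_of_pow_eq_one hc)
  have hk0 : k ≠ 0 := by
    rintro rfl
    rw [pow_zero, orderOf_eq_one_iff] at hk
    exact hc1 hk
  obtain ⟨l, rfl⟩ := Nat.exists_eq_succ_of_ne_zero hk0
  refine ⟨2 ^ l, ?_⟩
  rw [orderOf_pow_of_dvd (by positivity) (by rw [hk]; exact pow_dvd_pow 2 (Nat.le_succ l)), hk,
    Nat.succ_eq_add_one, pow_succ, Nat.mul_div_cancel_left _ (by positivity)]

/-- A core-free group without central involutions and with abelian Sylow `2`-subgroups has no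
nontrivial `2`-quotient: the Sylow `2`-subgroups lie in the derived group. -/
theorem abelian_sylow_le_commutator [Finite Γ] (hZ : ZStarHyp Γ) (T : Sylow 2 Γ)
    (hT : ∀ x ∈ T, ∀ y ∈ T, x * y = y * x)
    (hO : ∀ N : Subgroup Γ, N.Normal → Odd (Nat.card N) → N = ⊥)
    (hC : ∀ u : Γ, orderOf u = 2 → ∃ g : Γ, u * g ≠ g * u) :
    (T : Subgroup Γ) ≤ commutator Γ := by
  haveI : IsMulCommutative (T : Subgroup Γ) := ⟨⟨fun x y => Subtype.ext (hT x x.2 y y.2)⟩⟩
  obtain ⟨K, hKN, hcop, hfac⟩ := sylow_normalizer_complement T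
  intro t ht
  obtain ⟨n, hn, c, hc, rfl⟩ := Cfsg.Agent.Lib.Helper1.coprime_decomp K (T : Subgroup Γ) hKN hcop
    (Or.inr (Group.isSolvable_of_comm (fun x y => Subtype.ext (hT x x.2 y y.2)))) t ht
  have hn' : n ∈ commutator Γ := by
    rw [commutator_def]
    exact Subgroup.commutator_mono le_top le_top hn
  have hc1 : c = 1 := by
    by_contra hc1
    obtain ⟨m, hm⟩ := T.2 ⟨c, hc.1⟩
    have hm' : c ^ (2 ^ m) = 1 := by
      have := congrArg Subtype.val hm
      simpa using this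
    obtain ⟨i, hi⟩ := exists_pow_orderOf_two hm' hc1
    set u := c ^ i with hu
    have huT : u ∈ T := (T : Subgroup Γ).pow_mem hc.1 i
    have huK : ∀ k ∈ K, k * u = u * k := by
      intro k hk
      have h1 : c ∈ Subgroup.centralizer (K : Set Γ) := hc.2
      have h2 : u ∈ Subgroup.centralizer (K : Set Γ) := Subgroup.pow_mem _ h1 i
      exact (Subgroup.mem_centralizer_iff.1 h2) k hk
    have huN : ∀ n ∈ Subgroup.normalizer ((T : Subgroup Γ) : Set Γ), n * u = u * n := by
      intro n hn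
      obtain ⟨t, ht, k, hk, rfl⟩ := hfac n hn
      calc t * k * u = t * (k * u) := by group
        _ = (t * u) * k := by rw [huK k hk]; group
        _ = u * (t * k) := by rw [hT t ht u huT]; group
    obtain ⟨N, hN, hodd, hcN⟩ := hZ T u hi huT (fun g hg => by
      have hg' : (g⁻¹)⁻¹ * u * g⁻¹ ∈ T := by rwa [inv_inv]
      obtain ⟨n, hn, hgn⟩ := T.conj_eq_normalizer_conj_of_mem u g⁻¹ huT hg'
      rw [inv_inv] at hgn
      rw [hgn]
      calc n⁻¹ * u * n = n⁻¹ * (u * n) := by group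
        _ = u := by rw [← huN n hn]; group)
    have hNbot := hO N hN hodd
    obtain ⟨g, hg⟩ := hC u hi
    apply hg
    have h3 := hcN g
    rw [hNbot, Subgroup.mem_bot] at h3
    calc u * g = u * g * u⁻¹ * g⁻¹ * (g * u) := by group
      _ = g * u := by rw [h3, one_mul]
  rw [hc1, mul_one]
  exact hn'

end Cfsg.Agent.Lib.Helper27.ZCor
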