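import Cfsg.Agent.Lib.Helper27.ZCor5

set_option autoImplicit false
open scoped Pointwise commutatorElement

namespace Cfsg.Agent.Lib.Helper27.ZCor

open Cfsg.Agent.Lib.Helper27

variable {G Γ : Type*} [Group G] [Group Γ]

/-- Abstract form: `Γ = c(G)⟨a⟩` with `c(G)` normal and self-centralizing-free, `a` a `2`-element commuting
with the image of an abelian Sylow `2`-subgroup of `G`. Then `a ∈ c(G)`. -/
theorem mem_range_of_centralizes_sylow [Finite G] [Finite Γ] (hZ : ZStarHyp Γ)
    (hcore : ∀ N : Subgroup G, N.Normal → Odd (Nat.card N) → N = ⊥)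
    (P : Sylow 2 G) (hab : ∀ x ∈ P, ∀ y ∈ P, x * y = y * x)
    (c : G →* Γ) (hc : Function.Injective c) (hn : c.range.Normal) (a : Γ)
    (htop : Subgroup.zpowers a ⊔ c.range = ⊤) (hcomm : ∀ x ∈ P, a * c x = c x * a)
    (ha : ∃ j : ℕ, orderOf a = 2 ^ j)
    (hcent : ∀ ν : Γ, (∀ g : G, ν * c g = c g * ν) → ν = 1) : a ∈ c.range := by
  obtain ⟨j, hj⟩ := ha
  -- the 2-group `T₀`
  have hP2 : IsPGroup 2 ((P : Subgroup G).map c) := P.2.map c
  have ha2 : IsPGroup 2 (Subgroup.zpowers a) := isPGroup_zpowers a j hj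
  have hnorm : Subgroup.zpowers a ≤ Subgroup.normalizer (((P : Subgroup G).map c : Subgroup Γ) : Set Γ) := by
    rw [Subgroup.zpowers_le, Subgroup.mem_normalizer_iff]
    intro y
    have key : ∀ y ∈ (P : Subgroup G).map c, a * y * a⁻¹ = y := by
      rintro _ ⟨x, hx, rfl⟩
      rw [hcomm x hx]; group
    constructor
    · intro hy
      rw [key y hy]; exact hy
    · intro hy
      have h1 := key _ hy
      have h2 : a * y * a⁻¹ = y := by
        have : a * (a * y * a⁻¹) * a⁻¹ = a * y * a⁻¹ := h1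
        calc a * y * a⁻¹ = a⁻¹ * (a * (a * y * a⁻¹) * a⁻¹) * a := by group
          _ = a⁻¹ * (a * y * a⁻¹) * a := by rw [this]
          _ = y := by group
      rwa [h2] at hy
  have hT₀ : IsPGroup 2 (Subgroup.zpowers a ⊔ (P : Subgroup G).map c : Subgroup Γ) :=
    IsPGroup.to_sup_of_normal_right' ha2 hP2 hnorm
  obtain ⟨T, hT⟩ := hT₀.exists_le_sylow
  have haT : a ∈ T := hT (Subgroup.mem_sup_left (Subgroup.mem_zpowers a))
  have hPT : ∀ x ∈ P, c x ∈ T := fun x hx => hT (Subgroup.mem_sup_right ⟨x, hx, rfl⟩)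
  -- elements of `T`
  have hcomap : (T : Subgroup Γ).comap c = (P : Subgroup G) := by
    apply P.is_maximal' (T.2.comap_of_injective c hc)
    intro x hx
    exact hPT x hx
  have hform : ∀ t ∈ T, ∃ k : ℤ, ∃ x ∈ P, t = a ^ k * c x := by
    intro t ht
    have h1 : t ∈ Subgroup.zpowers a ⊔ c.range := by rw [htop]; trivial
    obtain ⟨y, hy, z, ⟨x, rfl⟩, rfl⟩ := Subgroup.mem_sup_of_normal_right.1 h1
    obtain ⟨k, rfl⟩ := Subgroup.mem_zpowers_iff.1 hy
    refine ⟨k, x, ?_, rfl⟩
    have h2 : c x ∈ (T : Subgroup Γ) := by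
      have h3 : (a ^ k)⁻¹ * (a ^ k * c x) ∈ (T : Subgroup Γ) :=
        (T : Subgroup Γ).mul_mem ((T : Subgroup Γ).inv_mem ((T : Subgroup Γ).zpow_mem haT k)) ht
      rwa [inv_mul_cancel_left] at h3
    have h4 : x ∈ (T : Subgroup Γ).comap c := h2
    rw [hcomap] at h4
    exact h4
  have hTab : ∀ x ∈ T, ∀ y ∈ T, x * y = y * x := by
    intro s hs t ht
    obtain ⟨k, x, hx, rfl⟩ := hform s hs
    obtain ⟨l, y, hy, rfl⟩ := hform t ht
    have c1 : Commute a (c x) := hcomm x hx
    have c2 : Commute a (c y) := hcomm y hy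
    have c3 : Commute (c x) (c y) := by
      change c x * c y = c y * c x
      rw [← map_mul, ← map_mul, hab x hx y hy]
    have c4 : Commute (a ^ k) (a ^ l) := (Commute.refl a).zpow_zpow k l
    exact ((c4.mul_right (c2.zpow_left k)).mul_left ((c1.zpow_left l).symm.mul_right c3))
  -- hypotheses of the abstract lemma
  have hO : ∀ N : Subgroup Γ, N.Normal → Odd (Nat.card N) → N = ⊥ := by
    intro N hN hodd
    have h1 : N.comap c = ⊥ := by
      apply hcore _ (hN.comap c)
      have h2 : Nat.card (N.comap c) ∣ Nat.card N := Subgroup.card_comap_dvd_of_injective N c hc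
      exact Odd.of_dvd_nat hodd h2
    rw [eq_bot_iff]
    intro ν hν
    rw [Subgroup.mem_bot]
    apply hcent
    intro g
    have h3 : ν * c g * ν⁻¹ * (c g)⁻¹ ∈ N := by
      have : ν * c g * ν⁻¹ * (c g)⁻¹ = ν * (c g * ν⁻¹ * (c g)⁻¹) := by group
      rw [this]
      exact N.mul_mem hν (hN.conj_mem _ (N.inv_mem hν) _)
    have h4 : ν * c g * ν⁻¹ * (c g)⁻¹ ∈ c.range :=
      c.range.mul_mem (hn.conj_mem _ ⟨g, rfl⟩ _) (c.range.inv_mem ⟨g, rfl⟩)
    obtain ⟨w, hw⟩ := h4
    have h5 : w ∈ N.comap c := by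
      change c w ∈ N
      rw [hw]; exact h3
    rw [h1, Subgroup.mem_bot] at h5
    rw [h5, map_one] at hw
    calc ν * c g = ν * c g * ν⁻¹ * (c g)⁻¹ * (c g * ν) := by group
      _ = c g * ν := by rw [← hw, one_mul]
  have hC : ∀ u : Γ, orderOf u = 2 → ∃ g : Γ, u * g ≠ g * u := by
    intro u hu
    by_contra hcon
    push Not at hcon
    have h1 := hcent u (fun g => hcon (c g))
    rw [h1, orderOf_one] at hu
    omega
  have h1 := abelian_sylow_le_commutator hZ T hTab hO hC
  have h2 : commutator Γ ≤ c.range := commutator_le_of_zpowers_sup _ htop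
  exact h2 (h1 haT)

theorem conj_conj_mulAut (φ : MulAut G) (g : G) : φ * MulAut.conj g * φ⁻¹ = MulAut.conj (φ g) := by
  ext x
  simp [MulAut.mul_apply, MulAut.conj_apply]

theorem s4593_of [Finite G] (hZ : ∀ (Γ : Subgroup (MulAut G)), ZStarHyp Γ) (hZG : Subgroup.center G = ⊥)
    (hcore : Cfsg.pPrimeCore 2 G = ⊥) (P : Sylow 2 G) (hab : IsMulCommutative (P : Subgroup G))
    (α : MulAut G) (h2 : ∃ j : ℕ, orderOf α = 2 ^ j) (hfix : ∀ x ∈ (P : Subgroup G), α x = x) :
    ∃ g : G, ∀ x : G, α x = g * x * g⁻¹ := by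
  haveI : Finite (MulAut G) := Finite.of_injective (fun e : MulAut G => (e : G → G)) DFunLike.coe_injective
  set Γ : Subgroup (MulAut G) := Subgroup.zpowers α ⊔ (MulAut.conj : G →* MulAut G).range with hΓ
  have hnI : ((MulAut.conj : G →* MulAut G).range).Normal := by
    constructor
    rintro _ ⟨g, rfl⟩ φ
    exact ⟨φ g, (conj_conj_mulAut φ g).symm⟩
  have hcΓ : ∀ g : G, MulAut.conj g ∈ Γ := fun g => Subgroup.mem_sup_right ⟨g, rfl⟩
  have hαΓ : α ∈ Γ := Subgroup.mem_sup_left (Subgroup.mem_zpowers α)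
  set c : G →* Γ := (MulAut.conj : G →* MulAut G).codRestrict Γ hcΓ with hc
  have hcval : ∀ g : G, ((c g : Γ) : MulAut G) = MulAut.conj g := fun g => rfl
  have hinj0 : ∀ g : G, (∀ x : G, g * x * g⁻¹ = x) → g = 1 := by
    intro g hg
    have : g ∈ Subgroup.center G := by
      rw [Subgroup.mem_center_iff]
      intro x
      calc x * g = g * x * g⁻¹ * g := by rw [hg x]
        _ = g * x := by group
    rwa [hZG, Subgroup.mem_bot] at this
  have hcinj : Function.Injective c := by
    rw [injective_iff_map_eq_one]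
    intro g hg
    apply hinj0
    intro x
    have h1 : (MulAut.conj g : MulAut G) = 1 := by
      rw [← hcval, hg]; rfl
    have h3 := congrArg (fun e : MulAut G => e x) h1
    simpa [MulAut.conj_apply] using h3
  have hmem := mem_range_of_centralizes_sylow (hZ Γ)
    (fun N hN hodd => by
      have : N ≤ Cfsg.pPrimeCore 2 G := le_sSup ⟨hN, (Nat.coprime_two_right).2 hodd⟩
      rw [hcore] at this
      exact eq_bot_iff.2 this)
    P (fun x hx y hy => by
      have := hab.is_comm.comm ⟨x, hx⟩ ⟨y, hy⟩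
      exact congrArg Subtype.val this)
    c hcinj
    (by
      constructor
      rintro _ ⟨g, rfl⟩ φ
      refine ⟨(φ : MulAut G) g, ?_⟩
      apply Subtype.ext
      exact (conj_conj_mulAut (φ : MulAut G) g).symm)
    ⟨α, hαΓ⟩
    (by
      rw [eq_top_iff]
      rintro ⟨γ, hγ⟩ -
      obtain ⟨y, hy, z, ⟨g, rfl⟩, rfl⟩ := Subgroup.mem_sup_of_normal_right.1 hγ
      obtain ⟨k, rfl⟩ := Subgroup.mem_zpowers_iff.1 hy
      have e : (⟨α ^ k * MulAut.conj g, hγ⟩ : Γ) = (⟨α, hαΓ⟩ : Γ) ^ k * c g := by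
        apply Subtype.ext
        simp [hcval]
      rw [e]
      exact Subgroup.mul_mem_sup (Subgroup.zpow_mem _ (Subgroup.mem_zpowers _) k) ⟨g, rfl⟩)
    (by
      intro x hx
      apply Subtype.ext
      change α * MulAut.conj x = MulAut.conj x * α
      have h1 := conj_conj_mulAut α x
      rw [hfix x hx] at h1
      calc α * MulAut.conj x = α * MulAut.conj x * α⁻¹ * α := by group
        _ = MulAut.conj x * α := by rw [h1])
    (by
      obtain ⟨j, hj⟩ := h2
      exact ⟨j, by rw [Subgroup.orderOf_mk, hj]⟩)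
    (by
      rintro ⟨ν, hν⟩ hcomm
      apply Subtype.ext
      change ν = 1
      ext g
      have h1 : ν * MulAut.conj g = MulAut.conj g * ν := congrArg Subtype.val (hcomm g)
      have h3 := conj_conj_mulAut ν g
      rw [h1] at h3
      have h4 : MulAut.conj g = MulAut.conj (ν g) := by
        rw [← h3]; group
      have h5 : g⁻¹ * ν g = 1 := by
        apply hinj0
        intro x
        have h6 := congrArg (fun e : MulAut G => e x) h4
        simp only [MulAut.conj_apply] at h6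
        calc g⁻¹ * ν g * x * (g⁻¹ * ν g)⁻¹ = g⁻¹ * (ν g * x * (ν g)⁻¹) * g := by group
          _ = x := by rw [← h6]; group
      change ν g = g
      calc ν g = g * (g⁻¹ * ν g) := by group
        _ = g := by rw [h5, mul_one])
  obtain ⟨g, hg⟩ := hmem
  refine ⟨g, fun x => ?_⟩
  have h1 : (MulAut.conj g : MulAut G) = α := by
    rw [← hcval, hg]
  rw [← h1, MulAut.conj_apply]

end Cfsg.Agent.Lib.Helper27.ZCor
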